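import Mathlib

/-!
Standard subgroups `K` with centre of even order and `K/Z(K)` one of `M₁₂`, `J₂`, `Suz`: definitions.
`Γ` stands for the automorphism group of `K/Z(K)` and `L` for the inner automorphisms.
See `stubs/Cfsg/Agent/CvS/PLAN.md`.
-/

set_option autoImplicit false

namespace Cfsg.Agent.CvS

open Subgroup

universe u

/-- The facts on `Γ ⊵ L` used for all three groups.  `z`, `β` represent the classes of involutions of `L`. -/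
structure Dt (Γ : Type) [Group Γ] where
  L : Subgroup Γ
  (z β : Γ)
  m : ℕ
  fin : Finite Γ
  om : Odd m
  nL : L.Normal
  idx : ∀ x y, x ∉ L → y ∉ L → x * y ∈ L
  zL : z ∈ L
  βL : β ∈ L
  z2 : z * z = 1
  z1 : z ≠ 1
  β2 : β * β = 1
  β1 : β ≠ 1
  cls : ∀ x ∈ L, x * x = 1 → x ≠ 1 → (∃ l ∈ L, l * x * l⁻¹ = z) ∨ ∃ l ∈ L, l * x * l⁻¹ = β
  ncj : ¬ IsConj z β
  p1 : ∀ H : Subgroup Γ, (∀ x ∈ L, x * z = z * x → x * x ∈ H) →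
    (∀ x ∈ L, ∀ f ∈ L, f * f = z → x * f = f * x → x ∈ H) → ∀ x ∈ L, x * z = z * x → x ∈ H
  p2 : ∀ φ, φ * φ = 1 → φ ≠ 1 → (∀ x ∈ L, x * z = z * x → x * φ = φ * x) → φ = z
  p6 : ∃ P : Subgroup Γ, P ≤ L ∧ IsPGroup 2 P ∧ (∀ x ∈ P, x * β = β * x) ∧ ∀ φ, IsConj β (φ * φ) →
    ∀ W : Subgroup Γ, IsPGroup 2 W → (∀ x ∈ W, x * φ = φ * x) → Nat.card W < Nat.card P
  p7 : ∀ φ ∉ L, φ * φ = 1 → (∃ b, IsConj β b ∧ b * φ = φ * b) ∧ ∃ f ∈ L, IsConj z (f * φ * f⁻¹ * φ)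
  p8 : ∃ p ∈ L, ∃ q ∈ L, p * p = 1 ∧ p * z = z * p ∧ q * z = z * q ∧ p * q * p⁻¹ * q⁻¹ = z

variable {Γ : Type} [Group Γ]

/-- The facts for the counting argument (`J₂`, `Suz`). -/
structure Dt.Cn (D : Dt Γ) where
  T : Subgroup Γ
  TL : T ≤ D.L
  T2 : IsPGroup 2 T
  Tz : ∀ x ∈ T, x * D.z = D.z * x
  syl : ∀ W ≤ D.L, IsPGroup 2 W → (∀ x ∈ W, x * D.z = D.z * x) →
    ∃ l ∈ D.L, l * D.z = D.z * l ∧ ∀ x ∈ W, l * x * l⁻¹ ∈ T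
  sq : ∀ H : Subgroup Γ, (∀ x ∈ D.L, x * D.z = D.z * x → x * x ∈ H) → ∀ x ∈ D.L, x * D.z = D.z * x → x ∈ H
  p3 : ∀ y ∈ T, y * y = D.z → ∃ t ∈ T, t * y * t⁻¹ ≠ y ∧ t * y * t⁻¹ ≠ y * D.z
  p4 : ∀ W ≤ D.L, IsPGroup 2 W → (∀ x ∈ W, x * D.β = D.β * x) → Nat.card W < Nat.card T
  p5 : {y | y ∈ T ∧ y * y = D.z}.ncard < {y | y ∈ T ∧ IsConj D.β y}.ncard

/-- `k ∈ Q ⟨p⟩`. -/
def InD (Q : Subgroup Γ) (p k : Γ) : Prop := k ∈ Q ∨ k * p ∈ Q ∨ k * p⁻¹ ∈ Q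

/-- The facts for `M₁₂`. -/
structure Dt.Me (D : Dt Γ) where
  m1 : D.m = 1
  Q : Subgroup Γ
  (f g p y x₀ : Γ)
  QL : Q ≤ D.L
  Qz : ∀ q ∈ Q, q * D.z = D.z * q
  Q2 : ∀ q ∈ Q, q * q = 1 ∨ q * q = D.z
  zQ : D.z ∈ Q
  βQ : D.β ∈ Q
  fQ : f ∈ Q
  ff : f * f = D.z
  gL : g ∈ D.L
  fg : f * g = g * f
  gQ : g * g ∈ Q
  gc : IsConj D.z (g * g)
  gz : g * g ≠ D.z
  root : ∀ x ∈ D.L, x * x = D.z → ∃ k ∈ D.L, k * D.z = D.z * k ∧ (k * x * k⁻¹ = f ∨ k * x * k⁻¹ = g * g * f⁻¹)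
  nsq : ∀ x ∈ D.L, ¬ IsConj D.β (x * x)
  pL : p ∈ D.L
  pz : p * D.z = D.z * p
  p3 : p ^ 3 = 1
  cQp : ∀ q ∈ Q, q * p = p * q → q = 1 ∨ q = D.z
  cov : ∀ ρ ∈ D.L, ρ * D.z = D.z * ρ → ρ ^ 3 = 1 → ρ ≠ 1 → ∀ q ∈ Q, ∃ k ∈ Q,
    q = ρ * k * ρ⁻¹ * k⁻¹ ∨ q * D.z = ρ * k * ρ⁻¹ * k⁻¹
  cmQ : ∀ ρ ∈ D.L, ρ * D.z = D.z * ρ → ρ ^ 3 = 1 → ∀ v ∈ D.L, v * D.z = D.z * v →
    (ρ * v * ρ⁻¹ * v⁻¹) ^ 8 = 1 → ρ * v * ρ⁻¹ * v⁻¹ ∈ Q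
  sqQ : ∀ v ∈ D.L, v * D.z = D.z * v → v ^ 8 = 1 → v * v ∈ Q
  yL : y ∈ D.L
  yQ : y * y ∈ Q
  y4 : y * y * (y * y) = D.z
  yD : ∀ x ∈ D.L, x * D.z = D.z * x → ¬ InD Q p x → InD Q p (x * y)
  xL : x₀ ∈ D.L
  xz : x₀ * D.z = D.z * x₀
  x2 : x₀ * x₀ = 1
  xD : ¬ InD Q p x₀
  invD : ∀ x ∈ D.L, x * D.z = D.z * x → ¬ InD Q p x → x * x = 1 → IsConj D.z x
  out : ∀ φ ∉ D.L, φ * D.z = D.z * φ → φ * φ = 1 → ∃ x ∈ D.L, x * D.z = D.z * x ∧ ¬ InD Q p x ∧ x * x = 1 ∧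
    φ * x * (φ * x) = D.z ∧ ∃ k ∈ D.L, k * k = D.z ∧ ¬ InD Q p (x * k) ∧ x * k * (x * k) = 1
  ocl : ∀ φ ∉ D.L, ∀ ψ ∉ D.L, φ * φ = 1 → ψ * ψ = 1 → ∃ l ∈ D.L, l * φ * l⁻¹ = ψ

/-- `N` acts on `K/Z(K)` through `th`; the kernel is `C(K)`, and `z0` is the involution of `Z(K)`. -/
structure Fr (G : Type u) [Group G] (D : Dt Γ) where
  (K N : Subgroup G)
  z0 : G
  th : G → Γ
  mul : ∀ {x y}, x ∈ N → y ∈ N → th (x * y) = th x * th y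
  KN : K ≤ N
  nK : ∀ {n k}, n ∈ N → k ∈ K → n * k * n⁻¹ ∈ K
  thK : ∀ {k}, k ∈ K → th k ∈ D.L
  onto : ∀ {l}, l ∈ D.L → ∃ k ∈ K, th k = l
  cK : ∀ {c k}, c ∈ N → th c = 1 → k ∈ K → c * k = k * c
  z0K : z0 ∈ K
  thz : th z0 = 1
  z2 : z0 * z0 = 1
  z1 : z0 ≠ 1
  zm : ∀ {k}, k ∈ K → th k = 1 → k ^ D.m = 1 ∨ k ^ D.m = z0
  ti : ∀ {c g}, c ∈ N → th c = 1 → c * c = 1 → c ≠ 1 → g * c * g⁻¹ ∈ N → th (g * c * g⁻¹) = 1 → g ∈ N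
  cov : ∃ a ∈ K, ∃ b ∈ K, th (a * a) = 1 ∧ th (b * b) = 1 ∧ th (a * b) = th (b * a) ∧ a * b ≠ b * a

namespace Fr

variable {G : Type u} [Group G] {D : Dt Γ} (φ : Fr G D) {x y n k : G}

/-- The action as a homomorphism. -/
def θ : φ.N →* Γ := MonoidHom.mk' (fun x => φ.th x) fun x y => φ.mul x.2 y.2

theorem th_one : φ.th 1 = 1 := map_one φ.θ
theorem th_inv (h : x ∈ φ.N) : φ.th x⁻¹ = (φ.th x)⁻¹ := map_inv φ.θ ⟨x, h⟩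
theorem th_pow (h : x ∈ φ.N) (i : ℕ) : φ.th (x ^ i) = φ.th x ^ i := map_pow φ.θ ⟨x, h⟩ i
theorem th_conj (hn : n ∈ φ.N) (h : x ∈ φ.N) : φ.th (n * x * n⁻¹) = φ.th n * φ.th x * (φ.th n)⁻¹ := by
  rw [φ.mul (mul_mem hn h) (inv_mem hn), φ.mul hn h, φ.th_inv hn]
theorem th_cmt (hn : n ∈ φ.N) (h : x ∈ φ.N) :
    φ.th (n * x * n⁻¹ * x⁻¹) = φ.th n * φ.th x * (φ.th n)⁻¹ * (φ.th x)⁻¹ := by
  rw [φ.mul (mul_mem (mul_mem hn h) (inv_mem hn)) (inv_mem h), φ.th_conj hn h, φ.th_inv h]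
theorem th_comm (hx : x ∈ φ.N) (hy : y ∈ φ.N) (h : x * y = y * x) : φ.th x * φ.th y = φ.th y * φ.th x := by
  rw [← φ.mul hx hy, h, φ.mul hy hx]
theorem th_sq (hx : x ∈ φ.N) (h : x * x = 1) : φ.th x * φ.th x = 1 := by rw [← φ.mul hx hx, h, φ.th_one]
theorem th_div (hx : x ∈ φ.N) (hy : y ∈ φ.N) (h : φ.th x = φ.th y) : φ.th (x⁻¹ * y) = 1 := by
  rw [φ.mul (inv_mem hx) hy, φ.th_inv hx, h, inv_mul_cancel]
theorem z0N : φ.z0 ∈ φ.N := φ.KN φ.z0K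
theorem th_mul_z (hx : x ∈ φ.N) : φ.th (x * φ.z0) = φ.th x := by rw [φ.mul hx φ.z0N, φ.thz, mul_one]
theorem zK (hk : k ∈ φ.K) : k * φ.z0 = φ.z0 * k := (φ.cK φ.z0N φ.thz hk).symm
/-- The centraliser of an involution of the kernel lies in `N`. -/
theorem cen {c g : G} (hc : c ∈ φ.N) (h1 : φ.th c = 1) (h2 : c * c = 1) (h3 : c ≠ 1) (h : g * c = c * g) :
    g ∈ φ.N := by
  have e : g * c * g⁻¹ = c := mul_inv_eq_iff_eq_mul.2 h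
  exact φ.ti hc h1 h2 h3 (e.symm ▸ hc) (e.symm ▸ h1)
theorem cenz {g : G} (h : g * φ.z0 = φ.z0 * g) : g ∈ φ.N := φ.cen φ.z0N φ.thz φ.z2 φ.z1 h

/-- The preimage in `K` of a subgroup. -/
def pre (P : Subgroup Γ) : Subgroup G := ((P.comap φ.θ).map φ.N.subtype) ⊓ φ.K
theorem mem_pre {P : Subgroup Γ} : x ∈ φ.pre P ↔ x ∈ φ.K ∧ φ.th x ∈ P :=
  ⟨fun ⟨⟨_, h, e⟩, h'⟩ => ⟨h', e ▸ h⟩, fun ⟨h, h'⟩ => ⟨⟨⟨x, φ.KN h⟩, h', rfl⟩, h⟩⟩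
/-- The image of a subgroup of `N`. -/
def img (Y : Subgroup G) : Subgroup Γ := (Y.subgroupOf φ.N).map φ.θ
theorem mem_img {Y : Subgroup G} (h : Y ≤ φ.N) {a : Γ} : a ∈ φ.img Y ↔ ∃ y ∈ Y, φ.th y = a :=
  ⟨fun ⟨y, hy, e⟩ => ⟨y, hy, e⟩, fun ⟨y, hy, e⟩ => ⟨⟨y, h hy⟩, hy, e⟩⟩

/-- The conjugate frame. -/
def conj (g : G) : Fr G D where
  K := φ.K.comap (MulAut.conj g).symm.toMonoidHom
  N := φ.N.comap (MulAut.conj g).symm.toMonoidHom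
  z0 := g * φ.z0 * g⁻¹
  th x := φ.th (g⁻¹ * x * g)
  mul {x y} hx hy := by
    rw [← φ.mul (x := g⁻¹ * x * g) (y := g⁻¹ * y * g) hx hy]; congr 1; group
  KN _ h := φ.KN h
  nK {n k} hn hk := by
    have := φ.nK (n := g⁻¹ * n * g) (k := g⁻¹ * k * g) hn hk
    show g⁻¹ * (n * k * n⁻¹) * g ∈ φ.K
    convert this using 1; group
  thK h := φ.thK h
  onto h := by
    obtain ⟨k, hk, e⟩ := φ.onto h
    refine ⟨g * k * g⁻¹, ?_, by simpa [mul_assoc] using e⟩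
    show g⁻¹ * (g * k * g⁻¹) * g ∈ φ.K
    simpa [mul_assoc] using hk
  cK {c k} hc h hk := by
    simpa [mul_assoc] using congrArg (fun t => g * t * g⁻¹) (φ.cK (c := g⁻¹ * c * g) (k := g⁻¹ * k * g) hc h hk)
  z0K := by
    show g⁻¹ * (g * φ.z0 * g⁻¹) * g ∈ φ.K
    simpa [mul_assoc] using φ.z0K
  thz := by simpa [mul_assoc] using φ.thz
  z2 := by rw [show g * φ.z0 * g⁻¹ * (g * φ.z0 * g⁻¹) = g * (φ.z0 * φ.z0) * g⁻¹ by group, φ.z2]; simp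
  z1 := by simpa using φ.z1
  zm {k} hk h := by
    have e : (g⁻¹ * k * g) ^ D.m = g⁻¹ * k ^ D.m * g := by simpa using conj_pow (a := g⁻¹) (b := k) (i := D.m)
    refine (φ.zm (k := g⁻¹ * k * g) hk h).imp (fun h => ?_) fun h => ?_
    · rw [e] at h
      simpa [mul_assoc] using congrArg (fun t => g * t * g⁻¹) h
    · rw [← h, e]; group
  ti {c h} hc h1 h2 h3 h4 h5 := by
    have e : g⁻¹ * h * g * (g⁻¹ * c * g) * (g⁻¹ * h * g)⁻¹ = g⁻¹ * (h * c * h⁻¹) * g := by group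
    refine φ.ti (c := g⁻¹ * c * g) (g := g⁻¹ * h * g) hc h1 ?_ (fun e => h3 ?_) (e.symm ▸ h4) (e.symm ▸ h5)
    · rw [show g⁻¹ * c * g * (g⁻¹ * c * g) = g⁻¹ * (c * c) * g by group, h2]; simp
    · simpa [mul_assoc] using congrArg (fun t => g * t * g⁻¹) e
  cov := by
    obtain ⟨a, ha, b, hb, h1, h2, h3, h4⟩ := φ.cov
    have m : ∀ {x}, x ∈ φ.K → g * x * g⁻¹ ∈ φ.K.comap (MulAut.conj g).symm.toMonoidHom := fun {x} h => by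
      show g⁻¹ * (g * x * g⁻¹) * g ∈ φ.K
      simpa [mul_assoc] using h
    exact ⟨_, m ha, _, m hb, by simpa [mul_assoc] using h1, by simpa [mul_assoc] using h2,
      by simpa [mul_assoc] using h3, fun e => h4 (by simpa [mul_assoc] using congrArg (fun t => g⁻¹ * t * g) e)⟩

theorem conj_K {g : G} : x ∈ (φ.conj g).K ↔ g⁻¹ * x * g ∈ φ.K := Iff.rfl
theorem conj_N {g : G} : x ∈ (φ.conj g).N ↔ g⁻¹ * x * g ∈ φ.N := Iff.rfl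
theorem conj_th (g x : G) : (φ.conj g).th x = φ.th (g⁻¹ * x * g) := rfl
theorem conj_z0 (g : G) : (φ.conj g).z0 = g * φ.z0 * g⁻¹ := rfl

/-- The frame twisted by an element of `Γ`; `K`, `N`, `z0` are unchanged by definition. -/
def tw (γ : Γ) : Fr G D where
  K := φ.K
  N := φ.N
  z0 := φ.z0
  th x := γ * φ.th x * γ⁻¹
  mul hx hy := by rw [φ.mul hx hy]; group
  KN := φ.KN
  nK := φ.nK
  thK h := D.nL.conj_mem _ (φ.thK h) γ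
  onto {l} h := by
    obtain ⟨k, hk, e⟩ := φ.onto (D.nL.conj_mem _ h γ⁻¹)
    exact ⟨k, hk, by rw [e]; group⟩
  cK hc h := φ.cK hc (by simpa using h)
  z0K := φ.z0K
  thz := by simp [φ.thz]
  z2 := φ.z2
  z1 := φ.z1
  zm hk h := φ.zm hk (by simpa using h)
  ti hc h1 h2 h3 h4 h5 := φ.ti hc (by simpa using h1) h2 h3 h4 (by simpa using h5)
  cov := by
    obtain ⟨a, ha, b, hb, h1, h2, h3, h4⟩ := φ.cov
    exact ⟨a, ha, b, hb, by simp [h1], by simp [h2], by rw [h3], h4⟩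

theorem tw_th (γ : Γ) (x : G) : (φ.tw γ).th x = γ * φ.th x * γ⁻¹ := rfl

end Fr

variable {G : Type u} [Group G] {D : Dt Γ}

/-- Two frames with commuting central involutions whose kernels have no common involution. -/
structure Pr (φ ψ : Fr G D) : Prop where
  comm : φ.z0 * ψ.z0 = ψ.z0 * φ.z0
  ti : ∀ c ∈ φ.N, c ∈ ψ.N → φ.th c = 1 → ψ.th c = 1 → c * c = 1 → c = 1

namespace Pr

variable {φ ψ : Fr G D}

theorem symm (h : Pr φ ψ) : Pr ψ φ := ⟨h.comm.symm, fun c a b d e => h.ti c b a e d⟩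
theorem tw (h : Pr φ ψ) (γ : Γ) : Pr (φ.tw γ) ψ :=
  ⟨h.comm, fun c a b d => h.ti c a b (by simpa [Fr.tw_th] using d)⟩
theorem tw' (h : Pr φ ψ) (γ : Γ) : Pr φ (ψ.tw γ) := (h.symm.tw γ).symm
theorem sN (h : Pr φ ψ) : ψ.z0 ∈ φ.N := φ.cenz h.comm.symm
theorem s1 (h : Pr φ ψ) : φ.th ψ.z0 ≠ 1 := fun e => ψ.z1 (h.ti _ h.sN ψ.z0N e ψ.thz ψ.z2)
theorem s2 (h : Pr φ ψ) : φ.th ψ.z0 * φ.th ψ.z0 = 1 := φ.th_sq h.sN ψ.z2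

end Pr

/-- In no pair does `ψ.z0` act on `φ.K` as an involution of the class of `z`. -/
def One (G : Type u) [Group G] (D : Dt Γ) : Prop := ∀ φ ψ : Fr G D, Pr φ ψ → ¬ IsConj D.z (φ.th ψ.z0)

/-- Some commuting involutions of `S` have non-commuting lifts in every perfect central extension with kernel of even
order, and the order of such a kernel divides `n`. -/
def Lf (S : Type) [Group S] (n : ℕ) : Prop :=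
  ∀ (K : Type u) [Group K] [Finite K] (σ : K →* S), Function.Surjective σ → σ.ker ≤ center K → commutator K = ⊤ →
    Even (Nat.card σ.ker) → Nat.card σ.ker ∣ n ∧
      ∃ a b : K, σ (a * a) = 1 ∧ σ (b * b) = 1 ∧ σ (a * b) = σ (b * a) ∧ a * b ≠ b * a

end Cfsg.Agent.CvS
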