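import Mathlib
import Cfsg.Agent.CvS.Defs

/-! Basic lemmas on data and frames. -/

set_option autoImplicit false

namespace Cfsg.Agent.CvS

open Subgroup

universe u

theorem cj_sq {G : Type*} [Group G] {a : G} (g : G) (h : a * a = 1) : g * a * g⁻¹ * (g * a * g⁻¹) = 1 := by
  rw [show g * a * g⁻¹ * (g * a * g⁻¹) = g * (a * a) * g⁻¹ by group, h]; simp

theorem isConj_sq {G : Type*} [Group G] {a b : G} (h : IsConj a b) (h2 : a * a = 1) : b * b = 1 := by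
  obtain ⟨g, rfl⟩ := isConj_iff.1 h
  exact cj_sq g h2

theorem isConj_ne {G : Type*} [Group G] {a b : G} (h : IsConj a b) (h1 : a ≠ 1) : b ≠ 1 :=
  fun e => h1 (isConj_one_left.1 (e ▸ h))

theorem isConj_cj {G : Type*} [Group G] (g a : G) : IsConj a (g * a * g⁻¹) := isConj_iff.2 ⟨g, rfl⟩

theorem inv_of_sq {G : Type*} [Group G] {a : G} (h : a * a = 1) : a⁻¹ = a := inv_eq_of_mul_eq_one_right h

/-- A nontrivial `2`-subgroup contains an involution. -/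
theorem exists_invol {G : Type*} [Group G] {x : G} {n : ℕ} (h : x ^ 2 ^ n = 1) (h1 : x ≠ 1) :
    ∃ i : ℕ, x ^ i ≠ 1 ∧ x ^ i * x ^ i = 1 := by
  induction n generalizing x with
  | zero => exact absurd (by simpa using h) h1
  | succ n ih =>
    by_cases h2 : x * x = 1
    · exact ⟨1, by simpa using h1, by simpa using h2⟩
    · obtain ⟨i, a, b⟩ := ih (x := x * x) (by rw [← pow_two, ← pow_mul, ← pow_succ', h]) h2
      exact ⟨2 * i, by rwa [pow_mul, pow_two], by rwa [pow_mul, pow_two]⟩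

theorem two_elt {G : Type*} [Group G] {Y : Subgroup G} (h : IsPGroup 2 Y) {x : G} (hx : x ∈ Y) :
    ∃ n : ℕ, x ^ 2 ^ n = 1 := (h ⟨x, hx⟩).imp fun _ e => congrArg Subtype.val e

theorem pg_of {G : Type*} [Group G] {Y : Subgroup G} (h : ∀ x ∈ Y, ∃ n : ℕ, x ^ 2 ^ n = 1) : IsPGroup 2 Y :=
  fun x => (h x x.2).imp fun _ e => Subtype.ext e

variable {Γ : Type} [Group Γ]

namespace Dt

variable (D : Dt Γ) {x y : Γ}

theorem sqL (x : Γ) : x * x ∈ D.L := (em (x ∈ D.L)).elim (fun h => mul_mem h h) fun h => D.idx x x h h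
theorem mul_iff : x * y ∈ D.L ↔ (x ∈ D.L ↔ y ∈ D.L) := by
  by_cases hx : x ∈ D.L
  · simp [hx, mul_mem_cancel_left hx]
  · by_cases hy : y ∈ D.L
    · simp [hx, hy, mul_mem_cancel_right hy]
    · simp [hx, hy, D.idx x y hx hy]
theorem cmtL (x y : Γ) : x * y * x⁻¹ * y⁻¹ ∈ D.L := by simp only [D.mul_iff, inv_mem_iff]; tauto
theorem oddL {n : ℕ} (hn : Odd n) (h : x ^ n ∈ D.L) : x ∈ D.L := by
  obtain ⟨k, rfl⟩ := hn
  rw [pow_succ, pow_mul, pow_two] at h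
  exact (mul_mem_cancel_left (pow_mem (D.sqL x) k)).1 h
theorem cjL (g : Γ) (h : x ∈ D.L) : g * x * g⁻¹ ∈ D.L := D.nL.conj_mem x h g
theorem conjL (h : IsConj x y) (hx : x ∈ D.L) : y ∈ D.L := by
  obtain ⟨g, rfl⟩ := isConj_iff.1 h
  exact D.cjL g hx
/-- An involution of `L` has one of the two types. -/
theorem ty (hx : x ∈ D.L) (h2 : x * x = 1) (h1 : x ≠ 1) : IsConj D.z x ∨ IsConj D.β x :=
  (D.cls x hx h2 h1).imp (fun ⟨l, _, e⟩ => (e ▸ isConj_cj l x).symm) fun ⟨l, _, e⟩ => (e ▸ isConj_cj l x).symm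
theorem of_z (h : IsConj D.z x) : ∃ l ∈ D.L, l * x * l⁻¹ = D.z :=
  (D.cls x (D.conjL h D.zL) (isConj_sq h D.z2) (isConj_ne h D.z1)).resolve_right fun ⟨l, _, e⟩ =>
    D.ncj (h.trans (e ▸ isConj_cj l x))
theorem of_β (h : IsConj D.β x) : ∃ l ∈ D.L, l * x * l⁻¹ = D.β :=
  (D.cls x (D.conjL h D.βL) (isConj_sq h D.β2) (isConj_ne h D.β1)).resolve_left fun ⟨l, _, e⟩ =>
    D.ncj (h.trans (e ▸ isConj_cj l x)).symm
theorem not_both (h : IsConj D.z x) : ¬ IsConj D.β x := fun h' => D.ncj (h.trans h'.symm)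

end Dt

namespace Fr

variable {G : Type u} [Group G] {D : Dt Γ} (φ : Fr G D) {x y n k : G}

theorem two (hk : k ∈ φ.K) (h : φ.th k = 1) {i : ℕ} (h2 : k ^ 2 ^ i = 1) : k = 1 ∨ k = φ.z0 := by
  have hc : (D.m).Coprime (2 ^ i) := (Nat.coprime_two_right.2 D.om).pow_right i
  obtain ⟨a, ha⟩ : ∃ a : ℕ, (k ^ D.m) ^ a = k := by
    have h3 : (D.m).Coprime (orderOf k) := hc.coprime_dvd_right (orderOf_dvd_of_pow_eq_one h2)
    exact exists_pow_eq_self_of_coprime h3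
  rcases φ.zm hk h with e | e
  · exact .inl (by rw [← ha, e, one_pow])
  · rw [e] at ha
    rcases Nat.even_or_odd' a with ⟨j, rfl | rfl⟩
    · exact .inl (by rw [← ha, pow_mul, pow_two, φ.z2, one_pow])
    · exact .inr (by rw [← ha, pow_succ, pow_mul, pow_two, φ.z2, one_pow, one_mul])

theorem two' (hk : k ∈ φ.K) (h : φ.th k = 1) (h2 : k * k = 1) : k = 1 ∨ k = φ.z0 :=
  φ.two hk h (i := 1) (by rw [pow_one, pow_two, h2])

theorem Nz (hn : n ∈ φ.N) : n * φ.z0 = φ.z0 * n :=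
  mul_inv_eq_iff_eq_mul.1 ((φ.two' (φ.nK hn φ.z0K) (by rw [φ.th_conj hn φ.z0N, φ.thz]; simp)
    (cj_sq n φ.z2)).resolve_left (by simpa using φ.z1))

theorem nK' (hn : n ∈ φ.N) (hk : k ∈ φ.K) : n⁻¹ * k * n ∈ φ.K := by simpa using φ.nK (inv_mem hn) hk

/-- An element acting as an inner automorphism is `a c` with `a ∈ K` and `c` in the kernel. -/
theorem dec (hn : n ∈ φ.N) (h : φ.th n ∈ D.L) : ∃ a ∈ φ.K, φ.th a = φ.th n ∧ φ.th (a⁻¹ * n) = 1 := by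
  obtain ⟨a, ha, e⟩ := φ.onto h
  exact ⟨a, ha, e, φ.th_div (φ.KN ha) hn e⟩

theorem z_pow {i : ℕ} : φ.z0 ^ i = 1 ∨ φ.z0 ^ i = φ.z0 :=
  φ.two' (pow_mem φ.z0K i) (by rw [φ.th_pow φ.z0N, φ.thz, one_pow])
    (by rw [← (Commute.refl φ.z0).mul_pow, φ.z2, one_pow])

/-- A `2`-element of `L` has a lift that is a `2`-element. -/
theorem lift2 {l : Γ} (hl : l ∈ D.L) {i : ℕ} (h : l ^ 2 ^ i = 1) :
    ∃ k ∈ φ.K, φ.th k = l ∧ k ^ 2 ^ (i + 1) = 1 := by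
  obtain ⟨a, ha, e⟩ := φ.onto hl
  have hc : (D.m).Coprime (orderOf l) :=
    ((Nat.coprime_two_right.2 D.om).pow_right i).coprime_dvd_right (orderOf_dvd_of_pow_eq_one h)
  obtain ⟨j, hj⟩ := exists_pow_eq_self_of_coprime hc
  refine ⟨(a ^ D.m) ^ j, pow_mem (pow_mem ha _) _, by rw [φ.th_pow (φ.KN (pow_mem ha _)), φ.th_pow (φ.KN ha), e, hj], ?_⟩
  have h1 := φ.zm (pow_mem ha (2 ^ i)) (by rw [φ.th_pow (φ.KN ha), e, h])
  have h2 : ((a ^ D.m) ^ j) ^ 2 ^ (i + 1) = (((a ^ 2 ^ i) ^ D.m) ^ 2) ^ j := by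
    simp only [← pow_mul]; congr 1; ring
  rw [h2]
  rcases h1 with e | e <;> rw [e]
  · simp
  · rw [pow_two, φ.z2, one_pow]

/-- Two `2`-elements of `K` with the same image. -/
theorem eq_or (hx : x ∈ φ.K) (hy : y ∈ φ.K) (h : φ.th x = φ.th y) {i j : ℕ} (h1 : x ^ 2 ^ i = 1)
    (h2 : y ^ 2 ^ j = 1) : y = x ∨ y = x * φ.z0 := by
  have a1 := φ.th_div (φ.KN hx) (φ.KN hy) h
  have a2 := mul_mem (inv_mem hx) hy
  have a3 : Commute x (x⁻¹ * y) := (φ.cK (φ.KN a2) a1 hx).symm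
  have a4 : Commute x⁻¹ y := by
    have : Commute x (x * (x⁻¹ * y)) := (Commute.refl x).mul_right a3
    rw [mul_inv_cancel_left] at this
    exact this.inv_left
  have a5 : (x⁻¹ * y) ^ 2 ^ (i + j) = 1 := by
    rw [a4.mul_pow, inv_pow, pow_add, pow_mul x, h1, mul_comm (2 ^ i), pow_mul y, h2]; simp
  exact (φ.two a2 a1 a5).imp (fun e => (inv_mul_eq_one.1 e).symm) fun e => by rw [← e]; group

/-- `n` centralises the `2`-element `k` modulo `z0`. -/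
theorem cmt2 (hn : n ∈ φ.N) (hk : k ∈ φ.K) (h : φ.th n * φ.th k = φ.th k * φ.th n) {i : ℕ} (h2 : k ^ 2 ^ i = 1) :
    n * k * n⁻¹ = k ∨ n * k * n⁻¹ = k * φ.z0 :=
  φ.eq_or hk (φ.nK hn hk) (by rw [φ.th_conj hn (φ.KN hk), h, mul_inv_cancel_right]) h2 (j := i)
    (by rw [conj_pow, h2]; simp)

/-- The same inside `K`, when only the image of `k` is a `2`-element. -/
theorem cmtK (hx : x ∈ φ.K) (hk : k ∈ φ.K) (h : φ.th x * φ.th k = φ.th k * φ.th x) {i : ℕ}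
    (h2 : φ.th k ^ 2 ^ i = 1) : x * k * x⁻¹ = k ∨ x * k * x⁻¹ = k * φ.z0 := by
  obtain ⟨a, ha, e, h3⟩ := φ.lift2 (φ.thK hk) h2
  have a1 := φ.th_div (φ.KN ha) (φ.KN hk) e
  have a2 := φ.cK (φ.KN (mul_mem (inv_mem ha) hk)) a1 hx
  have a3 : x * k * x⁻¹ = x * a * x⁻¹ * (a⁻¹ * k) := by
    rw [mul_assoc (x * a), ← (show Commute (a⁻¹ * k) x from a2).inv_right.eq]; group
  rcases φ.cmt2 (φ.KN hx) ha (e ▸ h) h3 with e | e
  · exact .inl (by rw [a3, e]; group)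
  · exact .inr (by rw [a3, e, mul_assoc, ← φ.zK (mul_mem (inv_mem ha) hk)]; group)

theorem card_img [Finite G] {Y : Subgroup G} (h : Y ≤ φ.N) :
    Nat.card Y = Nat.card (φ.img Y) * Nat.card (Y ⊓ φ.θ.ker.map φ.N.subtype : Subgroup G) := by
  let f : Y →* Γ := φ.θ.comp (inclusion h)
  have h1 : f.range = φ.img Y := ext fun a => by
    rw [φ.mem_img h]
    exact ⟨fun ⟨y, e⟩ => ⟨y, y.2, e⟩, fun ⟨y, hy, e⟩ => ⟨⟨y, hy⟩, e⟩⟩
  have h2 : f.ker.map Y.subtype = Y ⊓ φ.θ.ker.map φ.N.subtype := ext fun a =>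
    ⟨fun ⟨y, hy, e⟩ => e ▸ ⟨y.2, ⟨y, h y.2⟩, hy, rfl⟩, fun ⟨hy, y, h3, e⟩ => ⟨⟨a, hy⟩, by subst e; exact h3, rfl⟩⟩
  rw [← h1, ← h2, card_map_of_injective Y.subtype_injective, card_eq_card_quotient_mul_card_subgroup f.ker,
    Nat.card_congr (QuotientGroup.quotientKerEquivRange f).toEquiv]

theorem mem_ker {c : G} : c ∈ φ.θ.ker.map φ.N.subtype ↔ c ∈ φ.N ∧ φ.th c = 1 :=
  ⟨fun ⟨y, h, e⟩ => e ▸ ⟨y.2, h⟩, fun ⟨h, e⟩ => ⟨⟨c, h⟩, e, rfl⟩⟩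

theorem card_img_eq [Finite G] {Y : Subgroup G} (h : Y ≤ φ.N) (h1 : ∀ y ∈ Y, φ.th y = 1 → y = 1) :
    Nat.card (φ.img Y) = Nat.card Y := by
  rw [φ.card_img h, show Y ⊓ φ.θ.ker.map φ.N.subtype = ⊥ from
    eq_bot_iff.2 fun y hy => h1 y hy.1 (φ.mem_ker.1 hy.2).2, card_bot, mul_one]

theorem card_img_le [Finite G] {Y : Subgroup G} (h : Y ≤ φ.N) {w : G} (h1 : ∀ y ∈ Y, φ.th y = 1 → y = 1 ∨ y = w) :
    Nat.card Y ≤ 2 * Nat.card (φ.img Y) := by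
  rw [φ.card_img h, mul_comm]
  refine Nat.mul_le_mul_right _ ?_
  rw [← SetLike.coe_sort_coe, Nat.card_coe_set_eq]
  exact (Set.ncard_le_ncard (t := {1, w}) (fun y hy => h1 y hy.1 (φ.mem_ker.1 hy.2).2)).trans ((Set.ncard_insert_le _ _).trans (by simp))

theorem pg_img {Y : Subgroup G} (h : Y ≤ φ.N) (h2 : IsPGroup 2 Y) : IsPGroup 2 (φ.img Y) := pg_of fun a ha => by
  obtain ⟨y, hy, rfl⟩ := (φ.mem_img h).1 ha
  exact (two_elt h2 hy).imp fun i e => by rw [← φ.th_pow (h hy), e, φ.th_one]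

/-- The lift of a `2`-subgroup of `L`: it consists of the `2`-elements of `K` over `P`. -/
theorem liftP [Finite G] {P : Subgroup Γ} (hP : P ≤ D.L) (h2 : IsPGroup 2 P) : ∃ Y ≤ φ.K, IsPGroup 2 Y ∧ φ.z0 ∈ Y ∧
    (∀ y ∈ Y, φ.th y ∈ P) ∧ (∀ l ∈ P, ∃ y ∈ Y, φ.th y = l) ∧
    (∀ k ∈ φ.K, φ.th k ∈ P → ∀ i : ℕ, k ^ 2 ^ i = 1 → k ∈ Y) ∧ Nat.card Y = 2 * Nat.card P := by
  obtain ⟨S⟩ : Nonempty (Sylow 2 (φ.pre P)) := inferInstance
  let Y : Subgroup G := (S : Subgroup (φ.pre P)).map (φ.pre P).subtype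
  have a0 : Y ≤ φ.pre P := map_subtype_le _
  have a1 : Y ≤ φ.K := fun y hy => (φ.mem_pre.1 (a0 hy)).1
  have a2 : IsPGroup 2 Y := S.2.map _
  let f : φ.pre P →* P := (φ.θ.comp (inclusion fun y hy => φ.KN (φ.mem_pre.1 hy).1)).codRestrict P
    fun y => (φ.mem_pre.1 y.2).2
  have hf : Function.Surjective f := fun l => by
    obtain ⟨k, hk, e⟩ := φ.onto (hP l.2)
    exact ⟨⟨k, φ.mem_pre.2 ⟨hk, e ▸ l.2⟩⟩, Subtype.ext e⟩
  have a3 : ∀ l ∈ P, ∃ y ∈ Y, φ.th y = l := fun l hl => by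
    have h3 : (S.mapSurjective hf : Subgroup P) = ⊤ := by
      have := (S.mapSurjective hf).is_maximal' (h2.to_subgroup ⊤) le_top
      exact this.symm
    obtain ⟨y, hy, e⟩ : (⟨l, hl⟩ : P) ∈ (S : Subgroup (φ.pre P)).map f := by
      rw [← Sylow.coe_mapSurjective hf, h3]; trivial
    exact ⟨y, ⟨y, hy, rfl⟩, congrArg Subtype.val e⟩
  have hz : φ.z0 ∈ φ.pre P := φ.mem_pre.2 ⟨φ.z0K, φ.thz ▸ one_mem _⟩
  have a4 : φ.z0 ∈ Y := by
    have hn : (zpowers (⟨_, hz⟩ : φ.pre P)).Normal := ⟨fun a ha g => by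
      obtain ⟨i, rfl⟩ := mem_zpowers_iff.1 ha
      have : Commute g (⟨_, hz⟩ : φ.pre P) := Subtype.ext (φ.zK (φ.mem_pre.1 g.2).1)
      rw [(this.zpow_right i).eq, mul_inv_cancel_right]
      exact zpow_mem (mem_zpowers _) i⟩
    have hp : IsPGroup 2 (zpowers (⟨_, hz⟩ : φ.pre P)) := pg_of fun a ha => by
      obtain ⟨i, rfl⟩ := mem_zpowers_iff.1 ha
      refine ⟨1, ?_⟩
      rw [pow_one, ← zpow_natCast, ← zpow_mul, mul_comm, zpow_mul, zpow_natCast, pow_two,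
        show (⟨_, hz⟩ : φ.pre P) * ⟨_, hz⟩ = 1 from Subtype.ext φ.z2, one_zpow]
    exact ⟨_, hp.le_sylow_of_normal S (mem_zpowers _), rfl⟩
  have a5 : ∀ y ∈ Y, φ.th y ∈ P := fun y hy => (φ.mem_pre.1 (a0 hy)).2
  refine ⟨Y, a1, a2, a4, a5, a3, fun k hk h i e => ?_, ?_⟩
  · obtain ⟨y, hy, e1⟩ := a3 _ h
    obtain ⟨j, e2⟩ := two_elt a2 hy
    rcases φ.eq_or (a1 hy) hk e1 e2 e with e | e <;> rw [e]
    exacts [hy, mul_mem hy a4]
  · have b1 : φ.img Y = P := ext fun l => by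
      rw [φ.mem_img (a1.trans φ.KN)]
      exact ⟨fun ⟨y, hy, e⟩ => e ▸ a5 y hy, a3 l⟩
    have b2 : Y ⊓ φ.θ.ker.map φ.N.subtype = zpowers φ.z0 := le_antisymm (fun y hy => by
      obtain ⟨j, e2⟩ := two_elt a2 hy.1
      rcases φ.two (a1 hy.1) (φ.mem_ker.1 hy.2).2 e2 with e | e <;> rw [e]
      exacts [one_mem _, mem_zpowers _]) (zpowers_le.2 ⟨a4, φ.mem_ker.2 ⟨φ.z0N, φ.thz⟩⟩)
    rw [φ.card_img (a1.trans φ.KN), b1, b2, Nat.card_zpowers,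
      orderOf_eq_prime (p := 2) (by rw [pow_two, φ.z2]) φ.z1, mul_comm]

/-- A commuting conjugate of `z0` gives a pair. -/
theorem pr_conj {g : G} (h1 : g * φ.z0 * g⁻¹ ≠ φ.z0) (h2 : φ.z0 * (g * φ.z0 * g⁻¹) = g * φ.z0 * g⁻¹ * φ.z0) :
    Pr φ (φ.conj g) := ⟨h2, fun c a b d e f => by
  by_contra hc
  have := φ.ti (g := g⁻¹) a d f hc (by rw [inv_inv]; exact b) (by rw [inv_inv]; exact e)
  exact h1 (mul_inv_eq_iff_eq_mul.2 (φ.Nz (by simpa using inv_mem this)))⟩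

end Fr

end Cfsg.Agent.CvS
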