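import Mathlib
import Cfsg.Agent.CvS.Bas

/-! Lifts of involutions. -/

set_option autoImplicit false

namespace Cfsg.Agent.CvS

open Subgroup

universe u

variable {Γ : Type} [Group Γ] {G : Type u} [Group G] [Finite G] {D : Dt Γ}

namespace G1

theorem sq_comm {G : Type*} [Group G] {x a z : G} (h : x * a * x⁻¹ = a ∨ x * a * x⁻¹ = a * z) (hz : z * z = 1)
    (h1 : x * z = z * x) : x * x * a = a * (x * x) := by
  refine mul_inv_eq_iff_eq_mul.1 ?_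
  rw [show x * x * a * (x * x)⁻¹ = x * (x * a * x⁻¹) * x⁻¹ by group]
  rcases h with h | h
  · rw [h, h]
  · rw [h, show x * (a * z) * x⁻¹ = x * a * x⁻¹ * (x * z * x⁻¹) by group, h, h1, mul_inv_cancel_right, mul_assoc, hz,
      mul_one]

theorem comm_sq {G : Type*} [Group G] {x a z : G} (h : x * a * x⁻¹ = a ∨ x * a * x⁻¹ = a * z) (hz : z * z = 1)
    (h1 : a * z = z * a) : x * (a * a) = a * a * x := by
  refine mul_inv_eq_iff_eq_mul.1 ?_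
  rw [show x * (a * a) * x⁻¹ = x * a * x⁻¹ * (x * a * x⁻¹) by group]
  rcases h with h | h
  · rw [h]
  · rw [h, show a * z * (a * z) = a * (z * a) * z by group, ← h1, show a * (a * z) * z = a * a * (z * z) by group, hz,
      mul_one]

omit [Finite G] in
theorem cz0 (φ : Fr G D) {a k : G} (ha : a ∈ φ.K) (h : φ.th a = D.z) (hk : k ∈ φ.K)
    (hc : φ.th k * D.z = D.z * φ.th k) : k * a = a * k := by
  have hN : φ.K ⊓ centralizer {a} ≤ φ.N := inf_le_left.trans φ.KN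
  have mem : ∀ {x}, x ∈ φ.K → x * a = a * x → φ.th x ∈ φ.img (φ.K ⊓ centralizer {a}) := fun {x} hx e =>
    (φ.mem_img hN).2 ⟨x, ⟨hx, mem_centralizer_singleton_iff.2 e⟩, rfl⟩
  have tr : ∀ {x y}, x ∈ φ.K → y ∈ φ.K → ∀ {b}, b ∈ φ.K → φ.th x = φ.th y → x * b = b * x → y * b = b * y :=
    fun {x y} hx hy b hb e e' => by
      have := φ.cK (φ.KN (mul_mem (inv_mem hx) hy)) (φ.th_div (φ.KN hx) (φ.KN hy) e) hb
      calc y * b = x * (x⁻¹ * y * b) := by group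
        _ = b * y := by rw [this, ← mul_assoc, e']; group
  have h2 : φ.th a ^ 2 ^ 1 = 1 := by rw [h, pow_one, pow_two, D.z2]
  have := D.p1 (φ.img (φ.K ⊓ centralizer {a})) (fun x hx e => ?_) (fun x hx f hf e e' => ?_) _ (φ.thK hk) hc
  · obtain ⟨y, hy, e⟩ := (φ.mem_img hN).1 this
    exact tr hy.1 hk ha e (mem_centralizer_singleton_iff.1 hy.2)
  · obtain ⟨y, hy, rfl⟩ := φ.onto hx
    rw [← φ.mul (φ.KN hy) (φ.KN hy)]
    exact mem (mul_mem hy hy) (sq_comm (φ.cmtK hy ha (h ▸ e) h2) φ.z2 (φ.zK hy))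
  · obtain ⟨y, hy, rfl⟩ := φ.onto hx
    obtain ⟨g, hg, rfl⟩ := φ.onto hf
    refine mem hy (tr (mul_mem hg hg) ha hy (by rw [φ.mul (φ.KN hg) (φ.KN hg), e, h]) ?_).symm
    exact (comm_sq (φ.cmtK hy hg e' (i := 2) (by
      rw [show 2 ^ 2 = 2 * 2 from rfl, pow_mul, pow_two (φ.th g), e, pow_two, D.z2])) φ.z2 (φ.zK hg)).symm

omit [Finite G] in
theorem lz0 (φ : Fr G D) : ∃ a ∈ φ.K, φ.th a = D.z ∧ a * a = 1 := by
  obtain ⟨p, hp, q, hq, p2, pz, -, e⟩ := D.p8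
  obtain ⟨x, hx, rfl⟩ := φ.onto hp
  obtain ⟨y, hy, rfl⟩ := φ.onto hq
  have ha : x * y * x⁻¹ * y⁻¹ ∈ φ.K := mul_mem (φ.nK (φ.KN hx) hy) (inv_mem hy)
  have e1 : φ.th (x * y * x⁻¹ * y⁻¹) = D.z := (φ.th_cmt (φ.KN hx) (φ.KN hy)).trans e
  refine ⟨_, ha, e1, ?_⟩
  have c1 := cz0 φ ha e1 hx pz
  have c2 := φ.cK (φ.KN (mul_mem hx hx)) (by rw [φ.mul (φ.KN hx) (φ.KN hx), p2]) hy
  calc _ = x * (x * y * x⁻¹ * y⁻¹) * x⁻¹ * (x * y * x⁻¹ * y⁻¹) := by rw [c1, mul_inv_cancel_right]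
    _ = x * x * y * (x * x)⁻¹ * y⁻¹ := by group
    _ = 1 := by rw [c2]; group

theorem sq_eq {G : Type*} [Group G] {a k z : G} (h : k = a ∨ k = a * z) (hz : z * z = 1) (h1 : a * z = z * a) :
    k * k = a * a := by
  rcases h with h | h <;> rw [h]
  rw [show a * z * (a * z) = a * (z * a) * z by group, ← h1, show a * (a * z) * z = a * a * (z * z) by group, hz, mul_one]

end G1

open G1

theorem Fr.cz (φ : Fr G D) {w k : G} (hw : w ∈ φ.N) (h : IsConj D.z (φ.th w)) (hk : k ∈ φ.K)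
    (hc : φ.th k * φ.th w = φ.th w * φ.th k) : k * w = w * k := by
  obtain ⟨a, ha, e, e'⟩ := φ.dec hw (D.conjL h D.zL)
  obtain ⟨γ, hγ⟩ := isConj_iff.1 h.symm
  have h1 := cz0 (φ.tw γ) ha (by rw [Fr.tw_th, e, hγ]) hk (by
    rw [Fr.tw_th, ← hγ]
    calc _ = γ * (φ.th k * φ.th w) * γ⁻¹ := by group
      _ = _ := by rw [hc]; group)
  have h2 := φ.cK (mul_mem (inv_mem (φ.KN ha)) hw) e' hk
  calc k * w = k * a * (a⁻¹ * w) := by group
    _ = w * k := by rw [h1, mul_assoc, ← h2]; group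

theorem Fr.lz (φ : Fr G D) {k : G} (hk : k ∈ φ.K) (h : IsConj D.z (φ.th k)) {i : ℕ} (h2 : k ^ 2 ^ i = 1) :
    k * k = 1 := by
  obtain ⟨γ, hγ⟩ := isConj_iff.1 h.symm
  obtain ⟨a, ha, e, a2⟩ := lz0 (φ.tw γ)
  rw [sq_eq ((φ.tw γ).eq_or ha hk (by rw [e, Fr.tw_th, hγ]) (i := 1) (by rw [pow_one, pow_two, a2]) h2) φ.z2 (φ.zK ha),
    a2]

theorem Fr.lb (φ : Fr G D) {k : G} (hk : k ∈ φ.K) (h : IsConj D.β (φ.th k)) {i : ℕ} (h2 : k ^ 2 ^ i = 1) :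
    k * k = φ.z0 := by
  have k2 : φ.th (k * k) = 1 := by rw [φ.mul (φ.KN hk) (φ.KN hk), isConj_sq h D.β2]
  refine (φ.two (mul_mem hk hk) k2 (i := i) (by rw [(Commute.refl k).mul_pow, h2, mul_one])).resolve_left fun e => ?_
  have all : ∀ x ∈ φ.K, φ.th x * φ.th x = 1 → ∀ j : ℕ, x ^ 2 ^ j = 1 → x * x = 1 := fun x hx x2 j hj => by
    by_cases x1 : φ.th x = 1
    · rcases φ.two hx x1 hj with e | e <;> rw [e]
      exacts [mul_one _, φ.z2]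
    rcases D.ty (φ.thK hx) x2 x1 with t | t
    · exact φ.lz hx t hj
    obtain ⟨l, hl, e1⟩ := D.of_β h
    obtain ⟨l', hl', e2⟩ := D.of_β t
    obtain ⟨g, hg, e3⟩ := φ.onto (mul_mem (inv_mem hl') hl)
    have hk' := φ.nK (φ.KN hg) hk
    rw [sq_eq (φ.eq_or hk' hx (i := i) (by
      rw [φ.th_conj (φ.KN hg) (φ.KN hk), e3]
      calc _ = l'⁻¹ * (l * φ.th k * l⁻¹) * l' := by group
        _ = _ := by rw [e1, ← e2]; group) (by rw [conj_pow, h2]; simp) hj) φ.z2 (φ.zK hk'), cj_sq g e]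
  obtain ⟨a, ha, b, hb, a2, b2, ab, n⟩ := φ.cov
  rw [φ.mul (φ.KN ha) (φ.KN ha)] at a2
  rw [φ.mul (φ.KN hb) (φ.KN hb)] at b2
  rw [φ.mul (φ.KN ha) (φ.KN hb), φ.mul (φ.KN hb) (φ.KN ha)] at ab
  obtain ⟨x, hx, ex, x4⟩ := φ.lift2 (φ.thK ha) (i := 1) (by rw [pow_one, pow_two, a2])
  obtain ⟨y, hy, ey, y4⟩ := φ.lift2 (φ.thK hb) (i := 1) (by rw [pow_one, pow_two, b2])
  have x2 := all x hx (ex ▸ a2) _ x4
  have y2 := all y hy (ey ▸ b2) _ y4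
  have c : x * y = y * x := by
    refine mul_inv_eq_iff_eq_mul.1 ((φ.cmt2 (φ.KN hx) hy (by rw [ex, ey, ab]) y4).resolve_right fun e => φ.z1 ?_)
    have e1 : x * y * (x * y) = φ.z0 := by
      calc _ = x * y * x⁻¹ * (x * x) * y := by group
        _ = _ := by rw [e, x2, mul_one, φ.zK hy, mul_assoc, y2, mul_one]
    refine e1.symm.trans (all _ (mul_mem hx hy) ?_ 2 ?_)
    · rw [← φ.mul (φ.KN (mul_mem hx hy)) (φ.KN (mul_mem hx hy)), e1, φ.thz]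
    · rw [show 2 ^ 2 = 2 * 2 from rfl, pow_mul, pow_two (x * y), e1, pow_two, φ.z2]
  have c1 := φ.cK (φ.KN (mul_mem (inv_mem hx) ha)) (φ.th_div (φ.KN hx) (φ.KN ha) ex) hb
  have c2 := φ.cK (φ.KN (mul_mem (inv_mem hy) hb)) (φ.th_div (φ.KN hy) (φ.KN hb) ey) hx
  have c3 : x * b = b * x := by
    calc x * b = x * y * (y⁻¹ * b) := by group
      _ = _ := by rw [c, mul_assoc, ← c2]; group
  exact n (by
    calc a * b = x * (x⁻¹ * a * b) := by group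
      _ = _ := by rw [c1, ← mul_assoc, c3]; group)

theorem Pr.gen1 {φ ψ : Fr G D} (h : Pr φ ψ) {w : G} (hw : w ∈ φ.N) (hw' : w ∈ ψ.N) (h1 : ψ.th w = 1)
    (h2 : w * w = 1) (hz : IsConj D.z (φ.th w)) : φ.th ψ.z0 = φ.th w := by
  have w1 : w ≠ 1 := fun e => isConj_ne hz D.z1 (by rw [e, φ.th_one])
  obtain ⟨γ, hγ⟩ := isConj_iff.1 hz.symm
  have e : (φ.tw γ).th w = D.z := hγ
  have := D.p2 _ (h.tw γ).s2 (h.tw γ).s1 fun x hx c => by
    obtain ⟨k, hk, rfl⟩ := (φ.tw γ).onto hx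
    have c1 := (φ.tw γ).cz hw (e ▸ IsConj.refl _) hk (e ▸ c)
    exact (φ.tw γ).th_comm (φ.KN hk) h.sN (ψ.Nz (ψ.cen hw' h1 h2 w1 c1))
  rw [← hγ, Fr.tw_th] at this
  simpa using this

end Cfsg.Agent.CvS
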