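import Mathlib
import Cfsg.Agent.CvS.G1

set_option autoImplicit false

namespace Cfsg.Agent.CvS

open Subgroup

universe u

variable {Γ : Type} [Group Γ] {G : Type u} [Group G] [Finite G] {D : Dt Γ}

namespace G2

theorem card_le_two_mul {H : Type*} [Group H] [Finite H] {Y0 Y : Subgroup H}
    (h : ∀ x ∈ Y0, ∀ y ∈ Y0, x ∉ Y → y ∉ Y → x * y ∈ Y) : Nat.card Y0 ≤ 2 * Nat.card Y := by
  by_cases h0 : Y0 ≤ Y
  · have := card_le_of_le h0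
    omega
  obtain ⟨x, hx, hx'⟩ := SetLike.not_le_iff_exists.1 h0
  have e : (Y0 : Set H) ⊆ (Y : Set H) ∪ (fun y => x⁻¹ * y) '' (Y : Set H) := fun y hy =>
    (em (y ∈ Y)).imp id fun h' => ⟨x * y, h x hx y hy hx' h', by simp⟩
  have h1 := (Set.ncard_le_ncard e).trans (Set.ncard_union_le _ _)
  have h2 : ((fun y => x⁻¹ * y) '' (Y : Set H)).ncard ≤ (Y : Set H).ncard := Set.ncard_image_le
  rw [← SetLike.coe_sort_coe, Nat.card_coe_set_eq, ← SetLike.coe_sort_coe Y, Nat.card_coe_set_eq]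
  omega

/-- An involution of `K` in the kernel of `ψ` acts like `ψ.z0`, and it has the type of `z`. -/
theorem invol {φ ψ : Fr G D} (h : Pr φ ψ) {w : G} (hw : w ∈ φ.K) (hw' : w ∈ ψ.N) (h1 : ψ.th w = 1)
    (h2 : w * w = 1) (h3 : w ≠ 1) : IsConj D.z (φ.th w) ∧ φ.th ψ.z0 = φ.th w := by
  have a1 : φ.th w ≠ 1 := fun e => (φ.two' hw e h2).elim h3 fun e => h.symm.s1 (e ▸ h1)
  rcases D.ty (φ.thK hw) (φ.th_sq (φ.KN hw) h2) a1 with e | e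
  · exact ⟨e, h.gen1 (φ.KN hw) hw' h1 h2 e⟩
  · exact absurd ((φ.lb hw e (i := 1) (by rw [pow_one, pow_two, h2])).symm.trans h2) φ.z1

theorem aux {φ ψ : Fr G D} (h1 : One G D) (h : Pr φ ψ) (hs : φ.th ψ.z0 = D.β) : False := by
  obtain ⟨b, hb, eb, b2⟩ := φ.lift2 D.βL (i := 1) (by rw [pow_one, pow_two, D.β2])
  have bb : b * b = φ.z0 := φ.lb hb (eb ▸ IsConj.refl _) b2
  obtain ⟨c, hc⟩ : ∃ c, c = b⁻¹ * ψ.z0 := ⟨_, rfl⟩
  have cN : c ∈ φ.N := hc ▸ mul_mem (inv_mem (φ.KN hb)) h.sN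
  have c1 : φ.th c = 1 := hc ▸ φ.th_div (φ.KN hb) h.sN (eb.trans hs.symm)
  have es : ψ.z0 = b * c := by rw [hc]; group
  have cb : c * b = b * c := φ.cK cN c1 hb
  have cc : c * c = φ.z0 := by
    have e : φ.z0 * (c * c) = 1 := by
      rw [← ψ.z2, es, ← bb, mul_assoc b c, ← mul_assoc c, cb]; group
    rw [← inv_of_sq φ.z2]
    exact eq_inv_of_mul_eq_one_right e
  have cN' : c ∈ ψ.N := ψ.cenz (by rw [es, ← mul_assoc, cb])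
  have e2 : ψ.th c * ψ.th c = ψ.th φ.z0 := by rw [← ψ.mul cN' cN', cc]
  have ty : IsConj D.β (ψ.th c * ψ.th c) :=
    (D.ty (D.sqL _) (e2 ▸ h.symm.s2) (e2 ▸ h.symm.s1)).resolve_left (e2 ▸ h1 ψ φ h.symm)
  obtain ⟨P, PL, P2, Pβ, hP⟩ := D.p6
  obtain ⟨Y0, YK, Y2, -, thY, -, -, cY⟩ := φ.liftP PL P2
  have m : ∀ {y}, y ∈ Y0 ⊓ centralizer {b} ↔ y ∈ Y0 ∧ y * b = b * y := fun {y} => by
    rw [mem_inf, mem_centralizer_singleton_iff]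
  have a1 : ∀ y ∈ Y0, y ∉ Y0 ⊓ centralizer {b} → y * b * y⁻¹ = b * φ.z0 := fun y hy hn =>
    (φ.cmt2 (φ.KN (YK hy)) hb (eb ▸ Pβ _ (thY y hy)) b2).resolve_left fun e =>
      hn (m.2 ⟨hy, mul_inv_eq_iff_eq_mul.1 e⟩)
  have a2 : Nat.card Y0 ≤ 2 * Nat.card (Y0 ⊓ centralizer {b} : Subgroup G) :=
    card_le_two_mul fun x hx y hy hx' hy' => m.2 ⟨mul_mem hx hy, mul_inv_eq_iff_eq_mul.1 (by
      have e : x * y * b * (x * y)⁻¹ = x * (y * b * y⁻¹) * x⁻¹ := by group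
      rw [e, a1 y hy hy', ← mul_assoc, mul_assoc _ φ.z0, ← φ.zK (inv_mem (YK hx)), ← mul_assoc, a1 x hx hx',
        mul_assoc, φ.z2, mul_one])⟩
  have a3 : ∀ y ∈ Y0 ⊓ centralizer {b}, y * c = c * y := fun y hy => (φ.cK cN c1 (YK hy.1)).symm
  have a4 : Y0 ⊓ centralizer {b} ≤ ψ.N := fun y hy => ψ.cenz (by
    rw [es, ← mul_assoc, (m.1 hy).2, mul_assoc, a3 y hy, mul_assoc])
  have a5 : ∀ y ∈ Y0 ⊓ centralizer {b}, ψ.th y = 1 → y = 1 := fun y hy e => by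
    by_contra hy1
    obtain ⟨n, hn⟩ := two_elt Y2 hy.1
    obtain ⟨i, w1, w2⟩ := exists_invol hn hy1
    obtain ⟨e1, e2⟩ := invol h (YK (pow_mem hy.1 i)) (a4 (pow_mem hy i)) (by rw [ψ.th_pow (a4 hy), e, one_pow]) w2 w1
    exact D.ncj (by rwa [← e2, hs] at e1)
  have a6 := hP _ ty _ (ψ.pg_img a4 (Y2.to_le inf_le_left)) fun x hx => by
    obtain ⟨y, hy, rfl⟩ := (ψ.mem_img a4).1 hx
    exact ψ.th_comm (a4 hy) cN' (a3 y hy)
  rw [ψ.card_img_eq a4 a5] at a6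
  omega

end G2

theorem Pr.two {φ ψ : Fr G D} (h1 : One G D) (h : Pr φ ψ) : ¬ IsConj D.β (φ.th ψ.z0) := fun hβ => by
  obtain ⟨l, -, hl⟩ := D.of_β hβ
  exact G2.aux h1 (h.tw l) hl

end Cfsg.Agent.CvS
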