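import Mathlib
import Cfsg.Agent.CvS.G2

set_option autoImplicit false

namespace Cfsg.Agent.CvS

open Subgroup

universe u

variable {Γ : Type} [Group Γ] {G : Type u} [Group G] [Finite G] {D : Dt Γ}

namespace Cn1

theorem top {T : Type*} [Group T] [Group.IsNilpotent T] (B Z : Set T) (h1 : 1 ∈ Z)
    (hB : ∀ x ∈ B, ∀ t, x * t * x⁻¹ * t⁻¹ ∈ B) (hn : ∃ x ∈ B, x ∉ Z) :
    ∃ x ∈ B, x ∉ Z ∧ ∀ t, x * t * x⁻¹ * t⁻¹ ∈ Z := by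
  by_contra hc
  obtain ⟨x, hx, hx'⟩ := hn
  obtain ⟨n, hn⟩ := Group.IsNilpotent.nilpotent T
  have key : ∀ n, ∀ x ∈ B, x ∈ Subgroup.upperCentralSeries T n → x ∈ Z := fun n => by
    induction n with
    | zero => exact fun x _ h => by rw [Subgroup.upperCentralSeries_zero, mem_bot] at h; exact h ▸ h1
    | succ n ih =>
      intro x hx h
      by_contra hz
      exact hc ⟨x, hx, hz, fun t => ih _ (hB x hx t) (Subgroup.mem_upperCentralSeries_succ_iff.1 h t)⟩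
  exact hx' (key n x hx (hn ▸ mem_top x))

theorem mem {φ ψ : Fr G D} (h : Pr φ ψ) (hs : φ.th ψ.z0 = D.z) {k : G} (hk : k ∈ φ.K)
    (hz : φ.th k * D.z = D.z * φ.th k) : k ∈ ψ.N :=
  ψ.cenz (φ.cz h.sN (hs ▸ IsConj.refl _) hk (hs ▸ hz))

theorem zin (c : D.Cn) {φ ψ : Fr G D} (h : Pr φ ψ) (hs : φ.th ψ.z0 = D.z) : ψ.th φ.z0 ∈ D.L := by
  obtain ⟨y, hy, hβ⟩ := Set.nonempty_of_ncard_ne_zero (Nat.ne_zero_of_lt c.p5)
  obtain ⟨b, hb, eb, b2⟩ := φ.lift2 (c.TL hy) (i := 1) (by rw [pow_one, pow_two]; exact isConj_sq hβ D.β2)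
  have bN := mem h hs hb (eb ▸ c.Tz y hy)
  rw [← φ.lb hb (eb ▸ hβ) b2, ψ.mul bN bN]
  exact D.sqL _

/-- A subgroup of `T` normalised by `T` whose only involution is `z` lies in `⟨z⟩`. -/
theorem small (c : D.Cn) (B : Set Γ) (hT : ∀ x ∈ B, x ∈ c.T) (hm : ∀ x ∈ B, x * x ∈ B)
    (hc : ∀ x ∈ B, ∀ t ∈ c.T, x * t * x⁻¹ * t⁻¹ ∈ B) (hi : ∀ x ∈ B, x * x = 1 → x = 1 ∨ x = D.z) :
    ∀ x ∈ B, x = 1 ∨ x = D.z := by
  haveI := D.fin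
  haveI : Group.IsNilpotent c.T := c.T2.isNilpotent
  by_contra hn
  push Not at hn
  obtain ⟨x, hx, hx'⟩ := hn
  obtain ⟨y, hy, hy', hc⟩ := top (T := c.T) {t | t.1 ∈ B} {t | t.1 = 1 ∨ t.1 = D.z} (.inl rfl)
    (fun x hx t => hc x hx t t.2) ⟨⟨x, hT x hx⟩, hx, fun e => e.elim hx'.1 hx'.2⟩
  have key : ∀ n : ℕ, ∀ y ∈ B, ¬ (y = 1 ∨ y = D.z) → (∀ t ∈ c.T, t * y * t⁻¹ = y ∨ t * y * t⁻¹ = y * D.z) →
      y ^ 2 ^ n ≠ 1 := fun n => by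
    induction n with
    | zero => exact fun y _ h _ e => h (.inl (by simpa using e))
    | succ n ih =>
      intro y hy h ht e
      by_cases h2 : y * y = 1 ∨ y * y = D.z
      · rcases h2 with h2 | h2
        · exact h (hi y hy h2)
        · obtain ⟨t, ht', h3, h4⟩ := c.p3 y (hT y hy) h2
          exact (ht t ht').elim h3 h4
      · refine ih (y * y) (hm y hy) h2 (fun t ht' => .inl ?_) (by rw [← pow_two, ← pow_mul, ← pow_succ', e])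
        rw [show t * (y * y) * t⁻¹ = t * y * t⁻¹ * (t * y * t⁻¹) by group]
        rcases ht t ht' with e | e <;> rw [e]
        rw [mul_assoc, ← mul_assoc D.z, ← c.Tz y (hT y hy), mul_assoc, D.z2, mul_one]
  obtain ⟨n, hn⟩ := two_elt c.T2 y.2
  refine key n y hy hy' (fun t ht => ?_) hn
  have e : t * y * t⁻¹ = (y * t * (y : Γ)⁻¹ * t⁻¹)⁻¹ * y := by group
  rcases hc ⟨t, ht⟩ with e1 | e1
  · exact .inl (by rw [e, show (y * t * (y : Γ)⁻¹ * t⁻¹) = 1 from e1]; simp)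
  · exact .inr (by rw [e, show (y * t * (y : Γ)⁻¹ * t⁻¹) = D.z from e1, inv_of_sq D.z2, c.Tz _ y.2])

end Cn1

theorem Dt.Cn.inner (c : D.Cn) {φ ψ : Fr G D} (h : Pr φ ψ) (hs : φ.th ψ.z0 = D.z) {k : G} (hk : k ∈ φ.K)
    (hz : φ.th k * D.z = D.z * φ.th k) : k ∈ ψ.N ∧ ψ.th k ∈ D.L := by
  have kN := Cn1.mem h hs hk hz
  let H : Subgroup Γ :=
    { carrier := {a | ∃ x ∈ φ.K, φ.th x = a ∧ x ∈ ψ.N ∧ ψ.th x ∈ D.L}
      one_mem' := ⟨1, one_mem _, φ.th_one, one_mem _, ψ.th_one ▸ one_mem _⟩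
      mul_mem' := fun ⟨x, a1, a2, a3, a4⟩ ⟨y, b1, b2, b3, b4⟩ =>
        ⟨x * y, mul_mem a1 b1, by rw [φ.mul (φ.KN a1) (φ.KN b1), a2, b2], mul_mem a3 b3,
          ψ.mul a3 b3 ▸ mul_mem a4 b4⟩
      inv_mem' := fun ⟨x, a1, a2, a3, a4⟩ =>
        ⟨x⁻¹, inv_mem a1, by rw [φ.th_inv (φ.KN a1), a2], inv_mem a3, ψ.th_inv a3 ▸ inv_mem a4⟩ }
  obtain ⟨x, a1, a2, a3, a4⟩ : φ.th k ∈ H := c.sq H (fun l hl hlz => by
    obtain ⟨x, hx, rfl⟩ := φ.onto hl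
    have xN := Cn1.mem h hs hx hlz
    exact ⟨x * x, mul_mem hx hx, φ.mul (φ.KN hx) (φ.KN hx), mul_mem xN xN, ψ.mul xN xN ▸ D.sqL _⟩) _ (φ.thK hk) hz
  have b1 := mul_mem (inv_mem a3) kN
  have b2 : ψ.th (x⁻¹ * k) ∈ D.L := D.oddL D.om (by
    rw [← ψ.th_pow b1]
    rcases φ.zm (mul_mem (inv_mem a1) hk) (φ.th_div (φ.KN a1) (φ.KN hk) a2) with e | e <;> rw [e]
    exacts [ψ.th_one ▸ one_mem _, Cn1.zin c h hs])
  refine ⟨kN, ?_⟩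
  rw [← mul_inv_cancel_left x k, ψ.mul a3 b1]
  exact mul_mem a4 b2

theorem Dt.Cn.ker (c : D.Cn) {φ ψ : Fr G D} (h : Pr φ ψ) (hs : φ.th ψ.z0 = D.z) {Y : Subgroup G} (hY : Y ≤ φ.K)
    (h2 : IsPGroup 2 Y) (hT : ∀ y ∈ Y, φ.th y ∈ c.T) (ho : ∀ l ∈ c.T, ∃ y ∈ Y, φ.th y = l) :
    ∃ w, ∀ y ∈ Y, ψ.th y = 1 → y = 1 ∨ y = w := by
  have YN : Y ≤ ψ.N := fun y hy => Cn1.mem h hs (hY hy) (c.Tz _ (hT y hy))
  have YN' : Y ≤ φ.N := hY.trans φ.KN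
  have inj : ∀ y ∈ Y, ψ.th y = 1 → φ.th y = 1 → y = 1 := fun y hy e1 e2 => by
    obtain ⟨n, hn⟩ := two_elt h2 hy
    exact (φ.two (hY hy) e2 hn).resolve_right fun e => h.symm.s1 (e ▸ e1)
  have key := Cn1.small c {x | ∃ y ∈ Y, ψ.th y = 1 ∧ φ.th y = x} (fun _ ⟨y, hy, _, e⟩ => e ▸ hT y hy)
    (fun _ ⟨y, hy, e1, e⟩ => ⟨y * y, mul_mem hy hy, by rw [ψ.mul (YN hy) (YN hy), e1, one_mul],
      e ▸ φ.mul (YN' hy) (YN' hy)⟩)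
    (fun _ ⟨y, hy, e1, e⟩ t ht => by
      obtain ⟨x, hx, rfl⟩ := ho t ht
      exact ⟨y * x * y⁻¹ * x⁻¹, mul_mem (mul_mem (mul_mem hy hx) (inv_mem hy)) (inv_mem hx),
        by rw [ψ.th_cmt (YN hy) (YN hx), e1]; simp, e ▸ φ.th_cmt (YN' hy) (YN' hx)⟩)
    (fun _ ⟨y, hy, e1, e⟩ e2 => by
      subst e
      have y2 := inj _ (mul_mem hy hy) (by rw [ψ.mul (YN hy) (YN hy), e1, one_mul]) (by rwa [φ.mul (YN' hy) (YN' hy)])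
      by_cases y1 : y = 1
      · exact .inl (y1 ▸ φ.th_one)
      · exact .inr ((G2.invol h (hY hy) (YN hy) e1 y2 y1).2.symm.trans hs))
  by_cases hw : ∃ w ∈ Y, ψ.th w = 1 ∧ φ.th w = D.z
  · obtain ⟨w, hw, e1, e2⟩ := hw
    refine ⟨w, fun y hy e => (key _ ⟨y, hy, e, rfl⟩).imp (inj y hy e) fun e3 => ?_⟩
    exact (inv_mul_eq_one.1 (inj _ (mul_mem (inv_mem hw) hy) (ψ.th_div (YN hw) (YN hy) (e1.trans e.symm))
      (φ.th_div (YN' hw) (YN' hy) (e2.trans e3.symm)))).symm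
  · exact ⟨1, fun y hy e => .inl ((key _ ⟨y, hy, e, rfl⟩).elim (inj y hy e) fun e3 => absurd ⟨y, hy, e, e3⟩ hw)⟩

end Cfsg.Agent.CvS
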