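import Mathlib
import Cfsg.Agent.CvS.Cn1

set_option autoImplicit false

namespace Cfsg.Agent.CvS

open Subgroup

universe u

variable {Γ : Type} [Group Γ] {G : Type u} [Group G] [Finite G] {D : Dt Γ}

namespace Cn2

theorem img (c : D.Cn) {φ ψ : Fr G D} (h : Pr φ ψ) (hs : φ.th ψ.z0 = D.z) {Y : Subgroup G} (hY : Y ≤ φ.K)
    (h2 : IsPGroup 2 Y) (hT : ∀ y ∈ Y, φ.th y ∈ c.T) (ho : ∀ l ∈ c.T, ∃ y ∈ Y, φ.th y = l)
    (hc : Nat.card Y = 2 * Nat.card c.T) : ψ.img Y ≤ D.L ∧ IsPGroup 2 (ψ.img Y) ∧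
      (∀ x ∈ ψ.img Y, x * ψ.th φ.z0 = ψ.th φ.z0 * x) ∧ Nat.card c.T ≤ Nat.card (ψ.img Y) := by
  have a1 := fun y (hy : y ∈ Y) => c.inner h hs (hY hy) (c.Tz _ (hT y hy))
  have YN : Y ≤ ψ.N := fun y hy => (a1 y hy).1
  refine ⟨fun x hx => ?_, ψ.pg_img YN h2, fun x hx => ?_, ?_⟩
  · obtain ⟨y, hy, rfl⟩ := (ψ.mem_img YN).1 hx
    exact (a1 y hy).2
  · obtain ⟨y, hy, rfl⟩ := (ψ.mem_img YN).1 hx
    exact ψ.th_comm (YN hy) h.symm.sN (φ.zK (hY hy))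
  · obtain ⟨w, hw⟩ := c.ker h hs hY h2 hT ho
    have := ψ.card_img_le YN hw
    omega

theorem count (c : D.Cn) {φ ψ : Fr G D} (h : Pr φ ψ) (hs : φ.th ψ.z0 = D.z) (hs' : ψ.th φ.z0 = D.z)
    {Y : Subgroup G} (hY : Y ≤ φ.K) (h2 : IsPGroup 2 Y) (hz : φ.z0 ∈ Y) (hT : ∀ y ∈ Y, φ.th y ∈ c.T)
    (ho : ∀ l ∈ c.T, ∃ y ∈ Y, φ.th y = l) (hT' : ∀ y ∈ Y, ψ.th y ∈ c.T) : False := by
  haveI := D.fin
  have YN : Y ≤ ψ.N := fun y hy => (c.inner h hs (hY hy) (c.Tz _ (hT y hy))).1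
  obtain ⟨w, hw⟩ := c.ker h hs hY h2 hT ho
  have p5 := c.p5
  generalize hR : {y | y ∈ c.T ∧ y * y = D.z} = R at p5
  generalize hB : {y | y ∈ c.T ∧ IsConj D.β y} = B at p5
  obtain ⟨A, hA⟩ : ∃ A : Set G, A = {y | y ∈ Y ∧ y * y = φ.z0} := ⟨_, rfl⟩
  -- upper bound
  have up : A.ncard ≤ 2 * R.ncard := by
    let τ := Function.invFunOn ψ.th A
    have e : A ⊆ τ '' R ∪ (fun r => τ r * w) '' R := fun y hy => by
      have h3 : ∃ a ∈ A, ψ.th a = ψ.th y := ⟨y, hy, rfl⟩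
      have h4 : τ (ψ.th y) ∈ A := Function.invFunOn_mem h3
      have h5 : ψ.th (τ (ψ.th y)) = ψ.th y := Function.invFunOn_eq h3
      rw [hA] at hy h4
      have h6 : ψ.th y ∈ R := hR ▸ ⟨hT' y hy.1, by rw [← ψ.mul (YN hy.1) (YN hy.1), hy.2, hs']⟩
      rcases hw _ (mul_mem (inv_mem h4.1) hy.1) (ψ.th_div (YN h4.1) (YN hy.1) h5) with e | e
      · exact .inl ⟨_, h6, inv_mul_eq_one.1 e⟩
      · exact .inr ⟨_, h6, by show τ (ψ.th y) * w = y; rw [← e]; group⟩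
    have h1 := (Set.ncard_le_ncard e).trans (Set.ncard_union_le _ _)
    have h3 : (τ '' R).ncard ≤ R.ncard := Set.ncard_image_le
    have h4 : ((fun r => τ r * w) '' R).ncard ≤ R.ncard := Set.ncard_image_le
    omega
  -- lower bound
  have lo : 2 * B.ncard ≤ A.ncard := by
    let σ := Function.invFunOn φ.th Y
    have b0 : ∀ l ∈ B, l ∈ c.T ∧ IsConj D.β l := fun l hl => by rwa [← hB] at hl
    have b1 : ∀ l ∈ B, σ l ∈ Y := fun l hl => Function.invFunOn_mem (ho l (b0 l hl).1)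
    have b2 : ∀ l ∈ B, φ.th (σ l) = l := fun l hl => Function.invFunOn_eq (ho l (b0 l hl).1)
    have b3 : ∀ l ∈ B, φ.th (σ l * φ.z0) = l := fun l hl => by rw [φ.th_mul_z (φ.KN (hY (b1 l hl))), b2 l hl]
    have b4 : ∀ y ∈ Y, φ.th y ∈ B → y ∈ A := fun y hy hb => by
      obtain ⟨n, hn⟩ := two_elt h2 hy
      exact hA ▸ ⟨hy, φ.lb (hY hy) (b0 _ hb).2 hn⟩
    have e : σ '' B ∪ (fun l => σ l * φ.z0) '' B ⊆ A := by
      rintro _ (⟨l, hl, rfl⟩ | ⟨l, hl, rfl⟩)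
      · exact b4 _ (b1 l hl) ((b2 l hl).symm ▸ hl)
      · exact b4 _ (mul_mem (b1 l hl) hz) ((b3 l hl).symm ▸ hl)
    have d : Disjoint (σ '' B) ((fun l => σ l * φ.z0) '' B) := Set.disjoint_left.2 (by
      rintro _ ⟨l, hl, rfl⟩ ⟨l', hl', e⟩
      have e1 : l' = l := by rw [← b3 l' hl', ← b2 l hl]; exact congrArg φ.th e
      subst e1
      exact φ.z1 (mul_eq_left.1 e))
    have h1 := Set.ncard_le_ncard e
    rw [Set.ncard_union_eq d,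
      Set.ncard_image_of_injOn (fun a ha b hb e => by rw [← b2 a ha, ← b2 b hb]; exact congrArg φ.th e),
      Set.ncard_image_of_injOn (fun a ha b hb e => by rw [← b3 a ha, ← b3 b hb]; exact congrArg φ.th e)] at h1
    omega
  omega

theorem aux (c : D.Cn) {φ ψ : Fr G D} (h : Pr φ ψ) (hs : φ.th ψ.z0 = D.z) : False := by
  obtain ⟨Y, hY, h2, hz, hT, ho, -, hc⟩ := φ.liftP c.TL c.T2
  rcases D.ty (Cn1.zin c h hs) h.symm.s2 h.symm.s1 with e | e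
  · obtain ⟨l, -, hl⟩ := D.of_z e
    obtain ⟨a1, a2, a3, -⟩ := img c (h.tw' l) hs hY h2 hT ho hc
    obtain ⟨l', -, b1, b2⟩ := c.syl _ a1 a2 (hl ▸ a3)
    refine count c ((h.tw' l).tw' l') hs ?_ hY h2 hz hT ho fun y hy => b2 _ ?_
    · rw [Fr.tw_th, Fr.tw_th, hl, b1, mul_inv_cancel_right]
    · exact ((ψ.tw l).mem_img fun y hy => (c.inner (h.tw' l) hs (hY hy) (c.Tz _ (hT y hy))).1).2 ⟨y, hy, rfl⟩
  · obtain ⟨l, -, hl⟩ := D.of_β e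
    obtain ⟨a1, a2, a3, a4⟩ := img c (h.tw' l) hs hY h2 hT ho hc
    exact absurd (c.p4 _ a1 a2 (hl ▸ a3)) (not_lt.2 a4)

end Cn2

theorem Dt.Cn.one (c : D.Cn) : One G D := fun φ ψ h hz => by
  obtain ⟨l, -, hl⟩ := D.of_z hz
  exact Cn2.aux c (h.tw l) hl

end Cfsg.Agent.CvS
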