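import Mathlib
import Cfsg.Agent.CvS.Bas
import Cfsg.Prelude.Def_Local
import Cfsg.Agent.GT.FStar
import Cfsg.Agent.GT.Quasisimple
import Cfsg.Agent.S0205
import Cfsg.Agent.S0215

/-! The frame of a standard subgroup, and the existence of a pair. -/

set_option autoImplicit false

namespace Cfsg.Agent.CvS

open Subgroup

universe u

namespace Ex

/-- The action on the central quotient. -/
def qa (H : Type*) [Group H] : MulAut H →* MulAut (H ⧸ center H) where
  toFun a := QuotientGroup.congr _ _ a (characteristic_iff_map_eq.1 inferInstance a)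
  map_one' := by
    ext x
    induction x using QuotientGroup.induction_on with | H x => rfl
  map_mul' a b := by
    ext x
    induction x using QuotientGroup.induction_on with | H x => rfl

theorem qa_mk {H : Type*} [Group H] (a : MulAut H) (x : H) :
    qa H a (QuotientGroup.mk x) = QuotientGroup.mk (a x) := rfl

/-- Two distinct involutions of an abelian group make the order divisible by four. -/
theorem four_dvd {A : Type*} [Group A] [Finite A] (hc : ∀ a b : A, a * b = b * a) {x w : A}
    (hx : orderOf x = 2) (hw : w ^ 2 = 1) (h1 : w ≠ 1) (h2 : w ≠ x) : 4 ∣ Nat.card A := by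
  classical
  have : (zpowers x).Normal := ⟨fun a ha g => by rwa [hc g, mul_inv_cancel_right]⟩
  have h3 : orderOf (QuotientGroup.mk w : A ⧸ zpowers x) = 2 := by
    refine orderOf_eq_prime (by rw [← QuotientGroup.mk_pow, hw, QuotientGroup.mk_one]) fun e => ?_
    obtain ⟨i, hi, e⟩ := mem_zpowers_iff_mem_range_orderOf.1 ((QuotientGroup.eq_one_iff w).1 e) |>
      Finset.mem_image.1
    rw [hx, Finset.mem_range] at hi
    interval_cases i
    exacts [h1 (by simpa using e.symm), h2 (by simpa using e.symm)]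
  rw [card_eq_card_quotient_mul_card_subgroup (zpowers x), Nat.card_zpowers, hx]
  exact Nat.mul_dvd_mul_right (h3.symm.dvd.trans (_root_.orderOf_dvd_natCard _)) 2

end Ex

variable {Γ : Type} [Group Γ] {G : Type u} [Group G] [Finite G]

theorem exists_fr {K : Subgroup G} (hK : Cfsg.IsStandardSubgroup K) {S : Type} [Group S]
    (e : (K ⧸ center K) ≃* S) (D : Dt Γ) (θ : MulAut S →* Γ) (hθ : Function.Injective θ)
    (hL : ∀ x, x ∈ D.L ↔ ∃ y : S, θ (MulAut.conj y) = x) (he : Even (Nat.card (center K)))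
    (hf : Lf.{u} S (2 * D.m)) : Nonempty (Fr G D) := by
  classical
  have hp : Group.IsPerfect K := hK.1.1
  let η : normalizer (K : Set G) →* Γ :=
    θ.comp ((MulAut.congr e : MulAut (K ⧸ center K) →* MulAut S).comp ((Ex.qa K).comp K.normalizerMonoidHom))
  let σ : K →* S := (e : (K ⧸ center K) →* S).comp (QuotientGroup.mk' (center K))
  have hσ : Function.Surjective σ := e.surjective.comp (QuotientGroup.mk'_surjective _)
  have hσk : σ.ker = center K := ext fun k => by
    rw [MonoidHom.mem_ker, ← QuotientGroup.eq_one_iff]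
    exact e.map_eq_one_iff
  have hηK : ∀ k : K, η ⟨k, le_normalizer k.2⟩ = θ (MulAut.conj (σ k)) := fun k => by
    refine congrArg θ (MulEquiv.ext fun y => ?_)
    obtain ⟨x, rfl⟩ := hσ y
    change e (Ex.qa K (K.normalizerMonoidHom ⟨k, le_normalizer k.2⟩) (e.symm (e (QuotientGroup.mk x)))) = _
    rw [e.symm_apply_apply, Ex.qa_mk, MulAut.conj_apply, ← map_mul, ← map_inv, ← map_mul]
    rfl
  have hker : ∀ n : normalizer (K : Set G), η n = 1 ↔ (n : G) ∈ centralizer (K : Set G) := fun n => by
    refine ⟨fun h k hk => ?_, fun h => ?_⟩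
    · have h1 : Ex.qa K (K.normalizerMonoidHom n) = 1 :=
        (MulAut.congr e).map_eq_one_iff.1 ((injective_iff_map_eq_one θ).1 hθ _ h)
      have h2 := GT.perfect_hom_eq_self (K.normalizerMonoidHom n).toMonoidHom (fun x => by
        have h3 : (QuotientGroup.mk (K.normalizerMonoidHom n x) : K ⧸ center K) = QuotientGroup.mk x := by
          rw [← Ex.qa_mk, h1]; rfl
        rw [← QuotientGroup.eq_one_iff, QuotientGroup.mk_mul, QuotientGroup.mk_inv]
        exact mul_inv_eq_one.2 h3) ⟨k, hk⟩
      exact (mul_inv_eq_iff_eq_mul.1 (congrArg Subtype.val h2)).symm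
    · have h1 : K.normalizerMonoidHom n = 1 := MulEquiv.ext fun k => Subtype.ext
        (mul_inv_eq_iff_eq_mul.2 (h k k.2).symm)
      simp only [η, MonoidHom.comp_apply, h1, map_one]
  obtain ⟨hd, a, b, h1, h2, h3, h4⟩ := hf K σ hσ hσk.le hp.commutator_eq_top (hσk ▸ he)
  rw [hσk] at hd
  obtain ⟨x, hx⟩ := exists_prime_orderOf_dvd_card' (G := center K) 2 he.two_dvd
  have hx2 : x ^ 2 = 1 := hx ▸ pow_orderOf_eq_one x
  let th : G → Γ := fun g => if h : g ∈ normalizer (K : Set G) then η ⟨g, h⟩ else 1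
  have hth : ∀ {g} (h : g ∈ normalizer (K : Set G)), th g = η ⟨g, h⟩ := fun h => dif_pos h
  have hthK : ∀ k : K, th k = θ (MulAut.conj (σ k)) := fun k => (hth _).trans (hηK k)
  have hC : ∀ {c}, c ∈ normalizer (K : Set G) → th c = 1 → c ∈ centralizer (K : Set G) :=
    fun h h' => (hker _).1 ((hth h).symm.trans h')
  refine ⟨{
    K := K
    N := normalizer (K : Set G)
    z0 := ((x : K) : G)
    th := th
    mul := fun {y z} hy hz => by rw [hth hy, hth hz, hth (mul_mem hy hz), ← map_mul]; rfl
    KN := le_normalizer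
    nK := fun {n k} hn hk => (mem_normalizer_iff.1 hn k).1 hk
    thK := fun {k} hk => (hL _).2 ⟨_, (hthK ⟨k, hk⟩).symm⟩
    onto := fun {l} hl => by
      obtain ⟨y, rfl⟩ := (hL l).1 hl
      obtain ⟨k, rfl⟩ := hσ y
      exact ⟨k, k.2, hthK k⟩
    cK := fun {c k} hc h hk => (hC hc h k hk).symm
    z0K := (x : K).2
    thz := by rw [hthK, show σ x = 1 from hσk.ge x.2, map_one, map_one]
    z2 := by
      rw [pow_two] at hx2
      exact congrArg (fun y : center K => ((y : K) : G)) hx2
    z1 := fun h => by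
      rw [show x = 1 from Subtype.ext (Subtype.ext h), orderOf_one] at hx
      exact absurd hx (by norm_num)
    zm := fun {k} hk h => ?_
    ti := fun {c g} hc k1 k2 k3 k4 k5 => ?_
    cov := ⟨a, a.2, b, b.2, ?_, ?_, ?_, fun e => h4 (Subtype.ext e)⟩ }⟩
  · let y : center K := ⟨⟨k, hk⟩, mem_center_iff.2 fun g => Subtype.ext (hC (le_normalizer hk) h g g.2)⟩
    have k1 : (y ^ D.m) ^ 2 = 1 := by
      rw [← pow_mul, mul_comm, ← orderOf_dvd_iff_pow_eq_one]
      exact (_root_.orderOf_dvd_natCard y).trans hd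
    have k2 : y ^ D.m = 1 ∨ y ^ D.m = x := by
      by_contra! k2
      have k3 := (Ex.four_dvd (fun a b => Subtype.ext (mem_center_iff.1 b.2 a)) hx k1 k2.1 k2.2).trans hd
      obtain ⟨j, hj⟩ := D.om
      omega
    exact k2.imp (congrArg fun y : center K => ((y : K) : G)) (congrArg fun y : center K => ((y : K) : G))
  · by_contra hg
    rw [hK.2.2.2] at hg
    have k6 : orderOf (g * c * g⁻¹) = 2 :=
      orderOf_eq_prime (by rw [pow_two]; exact cj_sq g k2) (by simpa using k3)
    refine (hK.2.1.2 g hg).not_two_dvd_nat (k6.symm.dvd.trans (Subgroup.orderOf_dvd_natCard _ ?_))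
    exact mem_inf.2 ⟨hC k4 k5, c, hC hc k1, rfl⟩
  · rw [← coe_mul, hthK, h1, map_one, map_one]
  · rw [← coe_mul, hthK, h2, map_one, map_one]
  · rw [← coe_mul, ← coe_mul, hthK, hthK, h3]

theorem Fr.exists_pr (hF : IsSimpleGroup ↥(Cfsg.generalizedFittingSubgroup G))
    (hF' : ¬ IsMulCommutative ↥(Cfsg.generalizedFittingSubgroup G)) {D : Dt Γ} (φ : Fr G D) : ∃ ψ, Pr φ ψ := by
  set X := Cfsg.generalizedFittingSubgroup G with hXdef
  have key : ∀ N : Subgroup G, N.Normal → N = ⊥ ∨ X ≤ N := fun N hN =>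
    ((hN.subgroupOf X).eq_bot_or_eq_top).imp
      (fun h => by
        have h0 := subgroupOf_eq_bot.mp h
        have h1 : N ≤ centralizer (X : Set G) := commutator_eq_bot_iff_le_centralizer.mp
          (eq_bot_iff.mpr ((commutator_le_inf N X).trans h0.le_bot))
        exact h0.eq_bot_of_le (h1.trans GT.centralizer_genFitting_le))
      subgroupOf_eq_top.mp
  have hO : Cfsg.oddCore G = ⊥ := (key _ inferInstance).resolve_right fun h => by
    have := S0205.result (Odd.of_dvd_nat GT.odd_card_oddCore (card_dvd_of_le h))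
    exact hF' ⟨⟨IsSimpleGroup.comm_iff_isSolvable.mpr this⟩⟩
  by_contra! hn
  have hi : IsIsolatedInvolution φ.z0 := ⟨orderOf_eq_prime (by rw [pow_two, φ.z2]) φ.z1, fun g hg => by
    by_contra h
    exact hn _ (φ.pr_conj h hg)⟩
  have h1 := (key (center G) inferInstance).resolve_left fun e =>
    φ.z1 (mem_bot.1 (e ▸ hi.mem_center hO))
  exact hF' ⟨⟨fun x y => Subtype.ext (mem_center_iff.1 (h1 y.2) x)⟩⟩

end Cfsg.Agent.CvS
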