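import Mathlib
import Cfsg.Agent.CvS.G2

set_option autoImplicit false

namespace Cfsg.Agent.CvS

open Subgroup

universe u

variable {Γ : Type} [Group Γ] {G : Type u} [Group G] [Finite G] {D : Dt Γ}

namespace G3

theorem out {φ ψ : Fr G D} (h1 : One G D) (h : Pr φ ψ) : φ.th ψ.z0 ∉ D.L := fun hL =>
  (D.ty hL h.s2 h.s1).elim (h1 φ ψ h) (h.two h1)

theorem cj (ψ : Fr G D) (h1 : One G D) {g u : G} (e : g * ψ.z0 * g⁻¹ = u) (h2 : u ≠ ψ.z0)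
    (h3 : ψ.z0 * u = u * ψ.z0) : ψ.th u ∉ D.L := by
  subst e
  exact out h1 (ψ.pr_conj h2 h3)

theorem dih {H : Type*} [Group H] {s t : H} (hs : s * s = 1) (ht : t * t = 1) (j : ℕ) :
    (t * s) ^ (2 * j + 1) * s = (t * s) ^ j * t * ((t * s) ^ j)⁻¹ := by
  have e : t * (t * s)⁻¹ * t⁻¹ = t * s := by rw [mul_inv_rev, inv_of_sq hs, inv_of_sq ht, ← mul_assoc, mul_assoc _ t, ht, mul_one]
  have e2 : t * ((t * s) ^ j)⁻¹ = (t * s) ^ j * t := by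
    rw [← inv_pow, ← mul_inv_eq_iff_eq_mul, ← conj_pow, e]
  rw [mul_assoc _ t, e2, pow_succ, mul_assoc, mul_assoc t, hs, mul_one, two_mul, pow_add, mul_assoc]

end G3

theorem Pr.elim {φ ψ : Fr G D} (h1 : One G D) (h : Pr φ ψ) : False := by
  have o1 := G3.out h1 h
  have o2 := G3.out h1 h.symm
  have si := inv_of_sq ψ.z2
  obtain ⟨⟨b0, hb0, cb0⟩, f, hf, cf⟩ := D.p7 _ o1 h.s2
  obtain ⟨b, hb, eb, b2⟩ := φ.lift2 (D.conjL hb0 D.βL) (i := 1) (by rw [pow_one, pow_two]; exact isConj_sq hb0 D.β2)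
  have bb := φ.lb hb (eb ▸ hb0) b2
  have sb : ψ.z0 * b * ψ.z0⁻¹ = b * φ.z0 :=
    (φ.cmt2 h.sN hb (by rw [eb]; exact cb0.symm) b2).resolve_left fun e => by
      have bN : b ∈ ψ.N := ψ.cenz (mul_inv_eq_iff_eq_mul.1 e).symm
      exact o2 (by rw [← bb, ψ.mul bN bN]; exact D.sqL _)
  have sb' : b⁻¹ * ψ.z0 * b = ψ.z0 * φ.z0 := by
    rw [mul_assoc, mul_inv_eq_iff_eq_mul.1 sb, ← h.comm]; group
  obtain ⟨F, hF, eF⟩ := φ.onto hf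
  obtain ⟨t, ht⟩ : ∃ t, t = F * ψ.z0 * F⁻¹ := ⟨_, rfl⟩
  have t2 : t * t = 1 := ht ▸ cj_sq F ψ.z2
  have kK : t * ψ.z0 ∈ φ.K := by
    have := mul_mem hF (φ.nK h.sN (inv_mem hF))
    rw [si] at this
    rw [ht]
    simpa only [mul_assoc] using this
  have ek : IsConj D.z (φ.th (t * ψ.z0)) := by
    rwa [φ.mul (ht ▸ mul_mem (mul_mem (φ.KN hF) h.sN) (inv_mem (φ.KN hF))) h.sN, ht, φ.th_conj (φ.KN hF) h.sN, eF]
  obtain ⟨a, n, ⟨j, rfl⟩, ho⟩ := Nat.exists_eq_two_pow_mul_odd (orderOf_pos (t * ψ.z0)).ne'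
  obtain ⟨κ, hκ⟩ : ∃ κ, κ = (t * ψ.z0) ^ (2 * j + 1) := ⟨_, rfl⟩
  have κK : κ ∈ φ.K := hκ ▸ pow_mem kK _
  have κ2 : κ ^ 2 ^ a = 1 := by rw [hκ, ← pow_mul, mul_comm (2 * j + 1), ← ho, pow_orderOf_eq_one]
  have eκ : IsConj D.z (φ.th κ) := by
    rwa [hκ, φ.th_pow (φ.KN kK), pow_succ, pow_mul, pow_two, isConj_sq ek D.z2, one_pow, one_mul]
  have κκ := φ.lz κK eκ κ2
  have e1 : (t * ψ.z0) ^ j * F * ψ.z0 * ((t * ψ.z0) ^ j * F)⁻¹ = κ * ψ.z0 := by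
    rw [hκ, G3.dih ψ.z2 t2]
    generalize (t * ψ.z0) ^ j = x
    rw [ht]; group
  have gK : (t * ψ.z0) ^ j * F ∈ φ.K := mul_mem (pow_mem kK j) hF
  generalize (t * ψ.z0) ^ j * F = g at e1 gK
  have κs : ψ.z0 * κ = κ * ψ.z0 := by
    have := cj_sq g ψ.z2
    rw [e1] at this
    rw [← inv_of_sq κκ, ← si, ← mul_inv_rev, si, inv_of_sq κκ]
    exact inv_eq_of_mul_eq_one_right this
  have κN : κ ∈ ψ.N := ψ.cenz κs.symm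
  have κ1 : φ.th κ ≠ 1 := isConj_ne eκ D.z1
  by_cases hL : ψ.th κ ∈ D.L
  · refine G3.cj ψ h1 e1 (fun e => κ1 ?_) (by rw [← mul_assoc, κs]) (by rwa [ψ.th_mul_z κN])
    rw [mul_eq_right.1 e, φ.th_one]
  · have e2 : g * b⁻¹ * ψ.z0 * (g * b⁻¹)⁻¹ = κ * φ.z0 * ψ.z0 := by
      rw [show g * b⁻¹ * ψ.z0 * (g * b⁻¹)⁻¹ = g * (b⁻¹ * ψ.z0 * b) * g⁻¹ by group, sb', ← mul_assoc, mul_assoc _ φ.z0,
        ← φ.zK (inv_mem gK), ← mul_assoc, e1, mul_assoc, ← h.comm, mul_assoc]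
    refine G3.cj ψ h1 e2 (fun e => κ1 ?_) (by rw [← mul_assoc, ← mul_assoc, κs, mul_assoc κ, ← h.comm, ← mul_assoc]) ?_
    · rw [← φ.th_mul_z (φ.KN κK), mul_eq_right.1 e, φ.th_one]
    · rw [ψ.th_mul_z (mul_mem κN h.symm.sN), ψ.mul κN h.symm.sN]
      exact D.idx _ _ hL o2

end Cfsg.Agent.CvS
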