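import Mathlib
import Cfsg.Agent.CvS.Defs
import Cfsg.Agent.Spor.MX.Glue3

set_option autoImplicit false

namespace Cfsg.Agent.CvS

open Subgroup

universe u

open Cfsg.Agent.Spor Cfsg.Agent.Spor.MX

namespace Lf0

open Cfsg.Agent.Ch Function
open scoped commutatorElement

theorem ne {S K Q E : Type*} [Group S] [Finite S] [Group K] [Group Q] [Group E] {n : ℕ}
    (hM : Cfsg.HasCyclicSchurMultiplier S n) (h4 : ¬ 4 ∣ n) {σ : K →* S} (hs : Surjective σ) (hc : σ.ker ≤ center K)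
    (hK : commutator K = ⊤) (he : Even (Nat.card σ.ker)) (φ : S →* Q) (π : E →* Q) (hπ : Surjective π)
    (cπ : π.ker ≤ center E) {a b : K} {x y : E} (ha : φ (σ a) = π x) (hb : φ (σ b) = π y) (h1 : ⁅x, y⁆ ≠ 1)
    (h2 : ⁅x, y⁆ ^ 2 = 1) : ⁅a, b⁆ ≠ 1 := fun e => by
  let p := pullFst (φ.comp σ) π
  have s1 : Surjective (σ.comp p) := hs.comp (pullFst_surjective (by rw [MonoidHom.range_eq_top.2 hπ]; exact le_top))
  have c1 : (σ.comp p).ker ≤ center _ := fun z hz => mem_center_iff.2 fun w => Subtype.ext (Prod.ext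
    (mem_center_iff.1 (hc hz) w.1.1) (mem_center_iff.1 (cπ (show π z.1.2 = 1 from
      (show φ (σ z.1.1) = _ from z.2).symm.trans (by rw [show σ z.1.1 = 1 from hz, map_one]))) w.1.2))
  have := finite_ker_inf_commutator _ s1 c1
  have d := hM.card_inf_dvd _ s1 c1
  let θ := kerCommMap (σ.comp p) σ p rfl
  have s2 : Surjective θ := kerCommMap_surjective _ _ _ _ s1 hc
  have e1 : p ⁅(⟨(a, x), ha⟩ : pull (φ.comp σ) π), ⟨(b, y), hb⟩⁆ = 1 := (map_commutatorElement p _ _).trans e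
  have e2 := map_commutatorElement (pullSnd (φ.comp σ) π) ⟨(a, x), ha⟩ ⟨(b, y), hb⟩
  let t : θ.ker := ⟨⟨⁅(⟨(a, x), ha⟩ : pull (φ.comp σ) π), ⟨(b, y), hb⟩⁆, (congrArg σ e1).trans (map_one σ),
    commutator_mem_commutator (mem_top _) (mem_top _)⟩, Subtype.ext e1⟩
  have o : orderOf t = 2 := orderOf_eq_prime (Subtype.ext (Subtype.ext (Subtype.ext (Prod.ext
    ((map_pow p _ 2).trans ((congrArg (· ^ 2) e1).trans (one_pow 2))) ((map_pow (pullSnd _ π) _ 2).trans (e2 ▸ h2))))))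
    fun k => h1 (e2.symm.trans (congrArg (fun s : θ.ker => pullSnd _ π s.1.1) k))
  have k1 : Nat.card θ.ker * Nat.card ↥(σ.ker ⊓ commutator K) = Nat.card ↥((σ.comp p).ker ⊓ commutator _) := by
    rw [← θ.ker.card_mul_index, index_ker, MonoidHom.range_eq_top.2 s2, card_top]
  rw [← inf_top_eq σ.ker, ← hK] at he
  rw [← k1, Nat.card_congr Multiplicative.toAdd, Nat.card_zmod] at d
  exact h4 ((mul_dvd_mul (o ▸ orderOf_dvd_natCard t) he.two_dvd).trans d)

end Lf0

open scoped commutatorElement in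
theorem lf_of_cov {S : Type} [Group S] [Finite S] {g : ℕ → S} {rels : LT} {m N n : ℕ} (hg : Gen ⊤ g rels m N)
    (hb : Pres rels m N) (hM : Cfsg.HasCyclicSchurMultiplier S n) (h4 : ¬ 4 ∣ n)
    {val : List ℕ → List ℕ → Multiplicative (ZMod 2) → Prop} (hc : Cov rels (Multiplicative (ZMod 2)) val)
    {v w : List ℕ} (hv : val v w (Multiplicative.ofAdd 1)) (hl : band (lettersLt m v) (lettersLt m w) = true)
    (h1 : Commute (evalW g v) (evalW g w)) (h2 : evalW g v ^ 2 = 1) {j : ℕ} (hj : Odd j)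
    (h3 : evalW g w ^ (2 * j) = 1) : Lf.{u} S n := by
  intro K _ _ σ hs hk hK he
  refine ⟨(hM.card_ker_dvd σ ⟨hs, hk, hK ▸ le_top⟩).trans (by
    rw [Nat.card_congr Multiplicative.toAdd, Nat.card_zmod]), ?_⟩
  obtain ⟨M, _, h, ι, i1, i2, i3, i4⟩ := hc
  let E := centralizer (ι.range : Set M)
  let h' : ℕ → E := fun x => ⟨h x, by rintro _ ⟨t, rfl⟩; exact (i2 x t).eq.symm⟩
  have c1 : ι.range.subgroupOf E ≤ center E := fun z hz =>
    mem_center_iff.2 fun y => Subtype.ext (y.2 _ hz).symm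
  have := Ch.normal_of_le_center c1
  let π := QuotientGroup.mk' (ι.range.subgroupOf E)
  have c2 : ∀ w, (evalW h' w : E).1 = evalW h w := fun w => map_evalW E.subtype h' w
  obtain ⟨φ, -, hφ⟩ := hg.exists_hom hb (g' := fun x => π (h' x)) fun i => by
    rw [← map_evalW, QuotientGroup.mk'_apply, QuotientGroup.eq_one_iff, mem_subgroupOf, c2]
    exact i3 i
  have c3 : π.ker = ι.range.subgroupOf E := QuotientGroup.ker_mk' _
  rw [band_iff] at hl
  obtain ⟨a, ha⟩ := hs (evalW g v)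
  obtain ⟨b, hb⟩ := hs (evalW g w)
  let ψ : S →* _ := φ.comp topEquiv.symm.toMonoidHom
  have e1 : ψ (σ a) = π (evalW h' v) := ha ▸ (hφ v hl.1).trans (map_evalW π _ _).symm
  have e2 : ψ (σ b) = π (evalW h' w) := hb ▸ (hφ w hl.2).trans (map_evalW π _ _).symm
  have c6 : (⁅evalW h' v, evalW h' w⁆ : E).1 = ⁅evalW h v, evalW h w⁆ := by
    rw [← c2, ← c2]
    exact map_commutatorElement E.subtype _ _
  have c7 : ⁅evalW h' v, evalW h' w⁆ ∈ π.ker := by
    rw [MonoidHom.mem_ker, map_commutatorElement, ← e1, ← e2, ← map_commutatorElement, ha, hb,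
      commutatorElement_eq_one_iff_commute.2 h1, map_one]
  have c8 := c6.trans (i4 v w _ hv (c6 ▸ c3.le c7))
  have ne := Lf0.ne hM h4 hs hk hK he ψ π (QuotientGroup.mk'_surjective _) (c3.le.trans c1) e1 e2
    (fun e => by
      rw [e] at c8
      exact absurd (i1 ((map_one ι).trans c8)) (by decide))
    (Subtype.ext (by rw [coe_pow, c8, ← map_pow]; exact map_one ι))
  have z : ∀ y, Commute y ⁅a, b⁆ := fun y => mem_center_iff.1 (hk (by
    rw [MonoidHom.mem_ker, map_commutatorElement, ha, hb, commutatorElement_eq_one_iff_commute.2 h1])) y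
  have a2 : σ (a * a) = 1 := by rw [map_mul, ha, ← pow_two, h2]
  have p : ∀ i : ℕ, a * b ^ i * a⁻¹ = ⁅a, b⁆ ^ i * b ^ i := fun i => by
    rw [← conj_pow, ← (z b).symm.mul_pow, commutatorElement_def, inv_mul_cancel_right]
  have z2 : ⁅a, b⁆ * ⁅a, b⁆ = 1 := by
    have q := mem_center_iff.1 (hk a2) b
    calc _ = a * ⁅a, b⁆ * a⁻¹ * ⁅a, b⁆ := by rw [(z a).eq, mul_inv_cancel_right]
      _ = a * a * b * (a * a)⁻¹ * b⁻¹ := by simp only [commutatorElement_def]; group
      _ = 1 := by rw [← q]; group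
  refine ⟨a, b ^ j, a2, by rw [← pow_add, ← two_mul, map_pow, hb, h3], ?_, fun e => ne ?_⟩
  · rw [map_mul, map_mul, map_pow, ha, hb]; exact (h1.pow_right j).eq
  · obtain ⟨i, rfl⟩ := hj
    have := p (2 * i + 1)
    rwa [e, mul_inv_cancel_right, right_eq_mul, pow_succ, pow_mul, pow_two, z2, one_pow, one_mul] at this

end Cfsg.Agent.CvS
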