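import Mathlib
import Cfsg.Agent.CvS.Lf0
import Cfsg.Agent.S2040
import Cfsg.Agent.S2048

set_option autoImplicit false

namespace Cfsg.Agent.CvS

open Subgroup

universe u

open Cfsg.Agent.Spor Cfsg.Agent.Spor.MX

namespace LfS

/-- The word `w` repeated `n` times. -/
noncomputable def rp (w : List ℕ) (n : ℕ) : List ℕ := Nat.rec [] (fun _ r => appL w r) n

theorem ev {G : Type*} [Group G] {g : ℕ → G} {w : List ℕ} {n : ℕ} (h : evalW g (rp w n) = evalW g []) :
    evalW g w ^ n = 1 := by
  have : ∀ n, evalW g (rp w n) = evalW g w ^ n := fun n => by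
    induction n with
    | zero => exact (pow_zero _).symm
    | succ n ih => rw [pow_succ', ← ih, ← evalW_appL]; rfl
  exact (this n).symm.trans h

end LfS

open LfS

theorem lf_J2 : Lf.{u} Cfsg.Spor.J2 2 :=
  have := S2040.result.finite_base
  lf_of_cov j2m_gen (j2_bnd (wp_rels _)) S2040.result (by decide) (suz2_cov.sub (lo := j2_rels) (by decide +kernel))
    ⟨by decide +kernel, by decide +kernel⟩ (by decide +kernel) ((j2m_link.words j2m_w).commute j2m_c0)
    (ev ((j2m_link.words j2m_w).eq (by decide +kernel))) (j := 5) (by decide)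
    (ev ((j2m_link.words j2m_w).eq (by decide +kernel)))

theorem lf_Suz : Lf.{u} Cfsg.Spor.Suz 6 :=
  have := S2048.result.finite_base
  lf_of_cov suz_gen (suz_bnd (wp_rels _)) S2048.result (by decide) suz2_cov
    (v := [0, 2, 1, 2, 0, 0, 2, 0, 2, 3, 0, 3, 2, 0, 0]) (w := [0, 2, 1, 2, 0, 0, 0, 2, 1, 2, 1, 2, 3, 1, 1])
    ⟨by decide +kernel, by decide +kernel⟩ (by decide +kernel) (commute_of_base suz_tabs suz_base (by decide +kernel))
    (ev (suz_tabs.eq_of_base suz_base (by decide +kernel) (by decide +kernel))) (j := 5) (by decide)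
    (ev (suz_tabs.eq_of_base suz_base (by decide +kernel) (by decide +kernel)))

end Cfsg.Agent.CvS
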