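import Mathlib
import Cfsg.Agent.CvS.G1

set_option autoImplicit false
set_option linter.unusedSectionVars false

namespace Cfsg.Agent.CvS

open Subgroup

universe u

variable {Γ : Type} [Group Γ] {G : Type u} [Group G] [Finite G] {D : Dt Γ}

namespace Me1

variable (M : D.Me) (φ : Fr G D) {x y k : G}
include M

theorem ker (hk : k ∈ φ.K) (h : φ.th k = 1) : k = 1 ∨ k = φ.z0 := by
  simpa [M.m1] using φ.zm hk h

theorem eqo (hx : x ∈ φ.K) (hy : y ∈ φ.K) (h : φ.th x = φ.th y) : y = x ∨ y = x * φ.z0 :=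
  (ker M φ (mul_mem (inv_mem hx) hy) (φ.th_div (φ.KN hx) (φ.KN hy) h)).imp (fun e => (inv_mul_eq_one.1 e).symm)
    fun e => by rw [← e, mul_inv_cancel_left]

theorem sq_eq (hx : x ∈ φ.K) (hy : y ∈ φ.K) (h : φ.th x = φ.th y) : x * x = y * y := by
  rcases eqo M φ hx hy h with e | e <;> rw [e]
  rw [mul_assoc, ← mul_assoc φ.z0, ← φ.zK hx, mul_assoc x φ.z0, φ.z2, mul_one]

theorem four (hk : k ∈ φ.K) (h : φ.th k * φ.th k = 1) : k ^ 2 ^ 2 = 1 := by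
  rw [show k ^ 2 ^ 2 = k * k * (k * k) by rw [← pow_two, ← pow_two, ← pow_mul]; rfl]
  rcases ker M φ (mul_mem hk hk) (by rw [φ.mul (φ.KN hk) (φ.KN hk), h]) with e | e <;> rw [e]
  exacts [mul_one _, φ.z2]

theorem lz (hk : k ∈ φ.K) (h : IsConj D.z (φ.th k)) : k * k = 1 := φ.lz hk h (four M φ hk (isConj_sq h D.z2))

theorem lb (hk : k ∈ φ.K) (h : IsConj D.β (φ.th k)) : k * k = φ.z0 := φ.lb hk h (four M φ hk (isConj_sq h D.β2))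

theorem mb0 {f : G} (hf : f ∈ φ.K) (ef : φ.th f = M.f) (hx : x ∈ φ.K) (e : φ.th (x * x) = D.z) : x * x = f * f := by
  have xN := φ.KN hx
  have fN := φ.KN hf
  obtain ⟨l, hl, lz', h⟩ := M.root _ (φ.thK hx) (by rw [← φ.mul xN xN, e])
  obtain ⟨k, hk, rfl⟩ := φ.onto hl
  have h1 : k * (x * x) = x * x * k := φ.cz (mul_mem xN xN) (by rw [e]) hk (by rw [e, lz'])
  have h2 : x * x = k * x * k⁻¹ * (k * x * k⁻¹) := by
    rw [show k * x * k⁻¹ * (k * x * k⁻¹) = k * (x * x) * k⁻¹ by group, h1, mul_inv_cancel_right]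
  have hu := φ.nK (φ.KN hk) hx
  rw [← φ.th_conj (φ.KN hk) xN] at h
  rw [h2]
  rcases h with h | h
  · exact sq_eq M φ hu hf (h.trans ef.symm)
  · obtain ⟨g, hg, eg⟩ := φ.onto M.gL
    have gN := φ.KN hg
    have a2 : f * f * (f * f) = 1 := lz M φ (mul_mem hf hf) (by rw [φ.mul fN fN, ef, M.ff])
    have g4 : g * g * (g * g) = 1 := lz M φ (mul_mem hg hg) (by rw [φ.mul gN gN, eg]; exact M.gc)
    have c : Commute (g * g) f := by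
      refine mul_inv_eq_iff_eq_mul.1 ?_
      rw [show g * g * f * (g * g)⁻¹ = g * (g * f * g⁻¹) * g⁻¹ by group]
      rcases eqo M φ hf (φ.nK gN hf) (by rw [φ.th_conj gN fN, ef, eg, ← M.fg, mul_inv_cancel_right]) with e1 | e1
      · rw [e1, e1]
      · rw [e1, show g * (f * φ.z0) * g⁻¹ = g * f * g⁻¹ * (g * φ.z0 * g⁻¹) by group, e1, φ.zK hg,
          mul_inv_cancel_right, mul_assoc, φ.z2, mul_one]
    rw [sq_eq M φ hu (mul_mem (mul_mem hg hg) (inv_mem hf))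
      (by rw [h, φ.mul (mul_mem gN gN) (inv_mem fN), φ.mul gN gN, φ.th_inv fN, ef, eg]),
      show g * g * f⁻¹ * (g * g * f⁻¹) = g * g * (f⁻¹ * (g * g)) * f⁻¹ by group, ← c.inv_right.eq,
      show g * g * (g * g * f⁻¹) * f⁻¹ = g * g * (g * g) * (f * f)⁻¹ by group, g4, one_mul, inv_of_sq a2]

omit M in
/-- The elements that act as inner automorphisms. -/
def inn : Subgroup G := (D.L.comap φ.θ).map φ.N.subtype

omit M in
theorem mem_inn : x ∈ inn φ ↔ x ∈ φ.N ∧ φ.th x ∈ D.L :=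
  ⟨fun ⟨y, h, e⟩ => e ▸ ⟨y.2, h⟩, fun ⟨h, h'⟩ => ⟨⟨x, h⟩, h', rfl⟩⟩

end Me1

theorem Dt.Me.mb (M : D.Me) (φ : Fr G D) {x y : G} (hx : x ∈ φ.K) (hy : y ∈ φ.K) (h : IsConj D.z (φ.th (x * x)))
    (e : φ.th (x * x) = φ.th (y * y)) : x * x = y * y := by
  obtain ⟨γ, hγ⟩ := isConj_iff.1 h.symm
  obtain ⟨f, hf, ef⟩ := (φ.tw γ).onto (M.QL M.fQ)
  exact (Me1.mb0 M (φ.tw γ) hf ef hx hγ).trans (Me1.mb0 M (φ.tw γ) hf ef hy (by rw [Fr.tw_th, ← e, hγ])).symm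

theorem Dt.Me.innQ (M : D.Me) {φ ψ : Fr G D} (h : Pr φ ψ) (hs : φ.th ψ.z0 = D.z) {x : G} (hx : x ∈ φ.K)
    (hD : InD M.Q M.p (φ.th x)) : x ∈ ψ.N ∧ ψ.th x ∈ D.L := by
  have hN : ∀ k ∈ φ.K, φ.th k * D.z = D.z * φ.th k → k ∈ ψ.N := fun k hk e =>
    ψ.cenz (φ.cz h.sN (by rw [hs]) hk (by rw [hs, e]))
  have sq : ∀ k ∈ ψ.N, k * k ∈ Me1.inn ψ := fun k hk =>
    (Me1.mem_inn ψ).2 ⟨mul_mem hk hk, by rw [ψ.mul hk hk]; exact D.sqL _⟩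
  obtain ⟨b, hb, eb⟩ := φ.onto D.βL
  obtain ⟨f, hf, ef⟩ := φ.onto (M.QL M.fQ)
  obtain ⟨p, hp, ep⟩ := φ.onto M.pL
  have hz : φ.z0 ∈ Me1.inn ψ := Me1.lb M φ hb (by rw [eb]) ▸ sq b (hN b hb (by rw [eb]; exact M.Qz _ M.βQ))
  have tr : ∀ c ∈ φ.K, ∀ y ∈ φ.K, φ.th c = φ.th y → c ∈ Me1.inn ψ → y ∈ Me1.inn ψ := fun c hc y hy e hi => by
    rcases Me1.eqo M φ hc hy e with e1 | e1 <;> rw [e1]
    exacts [hi, mul_mem hi hz]
  have pN := hN p hp (by rw [ep]; exact M.pz)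
  have p1 : M.p ≠ 1 := fun e => (M.cQp _ M.gQ (by rw [e, mul_one, one_mul])).elim (isConj_ne M.gc D.z1) M.gz
  have hQ : ∀ y ∈ φ.K, φ.th y ∈ M.Q → y ∈ Me1.inn ψ := fun y hy hq => by
    obtain ⟨l, hl, e⟩ := M.cov _ M.pL M.pz M.p3 p1 _ hq
    obtain ⟨k, hk, rfl⟩ := φ.onto (M.QL hl)
    have kN := hN k hk (M.Qz _ hl)
    have cK : p * k * p⁻¹ * k⁻¹ ∈ φ.K := mul_mem (mul_mem (mul_mem hp hk) (inv_mem hp)) (inv_mem hk)
    have ci : p * k * p⁻¹ * k⁻¹ ∈ Me1.inn ψ := (Me1.mem_inn ψ).2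
      ⟨mul_mem (mul_mem (mul_mem pN kN) (inv_mem pN)) (inv_mem kN), by rw [ψ.th_cmt pN kN]; exact D.cmtL _ _⟩
    rw [← ep, ← φ.th_cmt (φ.KN hp) (φ.KN hk)] at e
    rcases e with e | e
    · exact tr _ cK y hy e.symm ci
    · refine (mul_mem_cancel_right (sq f (hN f hf (by rw [ef]; exact M.Qz _ M.fQ)))).1
        (tr _ cK _ (mul_mem hy (mul_mem hf hf)) ?_ ci)
      rw [← e, φ.mul (φ.KN hy) (φ.KN (mul_mem hf hf)), φ.mul (φ.KN hf) (φ.KN hf), ef, M.ff]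
  have pi : p ∈ Me1.inn ψ := (Me1.mem_inn ψ).2 ⟨pN, D.oddL (n := 3) (by decide) (by
    rw [← ψ.th_pow pN]
    exact ((Me1.mem_inn ψ).1 (hQ _ (pow_mem hp 3) (by rw [φ.th_pow (φ.KN hp), ep, M.p3]; exact one_mem _))).2)⟩
  refine (Me1.mem_inn ψ).1 ?_
  rcases hD with e | e | e
  · exact hQ x hx e
  · exact (mul_mem_cancel_right pi).1 (hQ _ (mul_mem hx hp) (by rwa [φ.mul (φ.KN hx) (φ.KN hp), ep]))
  · exact (mul_mem_cancel_right (inv_mem pi)).1 (hQ _ (mul_mem hx (inv_mem hp))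
      (by rwa [φ.mul (φ.KN hx) (φ.KN (inv_mem hp)), φ.th_inv (φ.KN hp), ep]))

theorem Dt.Me.mc (M : D.Me) {φ ψ : Fr G D} (h : Pr φ ψ) (hs : φ.th ψ.z0 = D.z) : IsConj D.z (ψ.th φ.z0) := by
  obtain ⟨b, hb, eb⟩ := φ.onto D.βL
  obtain ⟨bN, bL⟩ := M.innQ h hs hb (Or.inl (by rw [eb]; exact M.βQ))
  have e : ψ.th φ.z0 = ψ.th b * ψ.th b := by rw [← ψ.mul bN bN, Me1.lb M φ hb (by rw [eb])]
  exact (D.ty (e ▸ mul_mem bL bL) h.symm.s2 h.symm.s1).resolve_right (e ▸ M.nsq _ bL)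

end Cfsg.Agent.CvS
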