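import Mathlib
import Cfsg.Agent.CvS.Me1

/-! The `M₁₂` endgame, second part: the lifts of `Q` lie in both standard subgroups. -/

set_option autoImplicit false

namespace Cfsg.Agent.CvS

open Subgroup

universe u

variable {Γ : Type} [Group Γ] {G : Type u} [Group G] [Finite G] {D : Dt Γ}

namespace Me2

omit [Finite G] in
theorem ker1 (M : D.Me) (φ : Fr G D) {k : G} (hk : k ∈ φ.K) (h : φ.th k = 1) : k = 1 ∨ k = φ.z0 := by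
  simpa [M.m1] using φ.zm hk h

omit [Finite G] in
theorem eqz (M : D.Me) (φ : Fr G D) {x y : G} (hx : x ∈ φ.K) (hy : y ∈ φ.K) (h : φ.th x = φ.th y) :
    y = x ∨ y = x * φ.z0 :=
  (ker1 M φ (mul_mem (inv_mem hx) hy) (φ.th_div (φ.KN hx) (φ.KN hy) h)).imp
    (fun e => (inv_mul_eq_one.1 e).symm) fun e => by rw [← e]; group

theorem q4 (M : D.Me) {q : Γ} (hq : q ∈ M.Q) : q ^ 4 = 1 := by
  rw [show q ^ 4 = q * q * (q * q) by simp only [pow_succ, pow_zero, one_mul, mul_assoc]]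
  rcases M.Q2 q hq with e | e <;> rw [e]
  exacts [one_mul 1, D.z2]

omit [Finite G] in
theorem pow2 (M : D.Me) (φ : Fr G D) {x : G} (hx : x ∈ φ.K) {n : ℕ} (h : φ.th x ^ n = 1) : x ^ (n * 2) = 1 := by
  rw [pow_mul, pow_two]
  rcases ker1 M φ (pow_mem hx n) (by rw [φ.th_pow (φ.KN hx), h]) with e | e <;> rw [e]
  exacts [one_mul 1, φ.z2]

omit [Finite G] in
theorem pow8 (M : D.Me) (φ : Fr G D) {x : G} (hx : x ∈ φ.K) (hQ : φ.th x ∈ M.Q) : x ^ 2 ^ 3 = 1 :=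
  pow2 M φ hx (q4 M hQ)

omit [Finite G] in
theorem lift_p (M : D.Me) (φ : Fr G D) : ∃ a ∈ φ.K, φ.th a = M.p ∧ a ^ 3 = 1 := by
  obtain ⟨a, ha, e⟩ := φ.onto M.pL
  refine ⟨a ^ 4, pow_mem ha 4, by rw [φ.th_pow (φ.KN ha), e, pow_succ, M.p3, one_mul], ?_⟩
  rw [← pow_mul, show 4 * 3 = 3 * 2 * 2 by norm_num, pow_mul, pow2 M φ ha (by rw [e, M.p3]), one_pow]

/-- Elements of `K` whose image commutes with `z` commute with `s`. -/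
theorem cs {φ ψ : Fr G D} (h : Pr φ ψ) (hs : φ.th ψ.z0 = D.z) {k : G} (hk : k ∈ φ.K)
    (hc : φ.th k * D.z = D.z * φ.th k) : k * ψ.z0 = ψ.z0 * k :=
  φ.cz h.sN (hs ▸ IsConj.refl _) hk (by rw [hs, hc])

omit [Finite G] in
theorem cz' {φ ψ : Fr G D} (h : Pr φ ψ) (hs' : ψ.th φ.z0 = D.z) {k : G} (hk : k ∈ φ.K) (hN : k ∈ ψ.N) :
    ψ.th k * D.z = D.z * ψ.th k := hs' ▸ ψ.th_comm hN h.symm.sN (φ.zK hk)

theorem p_ne (M : D.Me) : M.p ≠ 1 := fun e =>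
  (M.cQp _ M.gQ (by rw [e, mul_one, one_mul])).elim (isConj_ne M.gc D.z1) M.gz

theorem thQ (M : D.Me) {φ ψ : Fr G D} (h : Pr φ ψ) (hs : φ.th ψ.z0 = D.z) (hs' : ψ.th φ.z0 = D.z) {x : G}
    (hx : x ∈ φ.K) (hQ : φ.th x ∈ M.Q) : ψ.th x ∈ M.Q := by
  obtain ⟨a, ha, ea, a3⟩ := lift_p M φ
  obtain ⟨k, hk, hc⟩ := M.cov M.p M.pL M.pz M.p3 (p_ne M) _ hQ
  obtain ⟨b, hb, eb⟩ := φ.onto (M.QL hk)
  obtain ⟨f, hf, ef⟩ := φ.onto (M.QL M.fQ)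
  obtain ⟨aN, aL⟩ := M.innQ h hs ha (.inr (.inr (by rw [ea, mul_inv_cancel]; exact one_mem _)))
  obtain ⟨bN, bL⟩ := M.innQ h hs hb (.inl (eb ▸ hk))
  obtain ⟨fN, fL⟩ := M.innQ h hs hf (.inl (ef ▸ M.fQ))
  obtain ⟨xN, -⟩ := M.innQ h hs hx (.inl hQ)
  have cK : a * b * a⁻¹ * b⁻¹ ∈ φ.K := mul_mem (mul_mem (mul_mem ha hb) (inv_mem ha)) (inv_mem hb)
  have cN : a * b * a⁻¹ * b⁻¹ ∈ ψ.N := mul_mem (mul_mem (mul_mem aN bN) (inv_mem aN)) (inv_mem bN)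
  have ec : φ.th (a * b * a⁻¹ * b⁻¹) = M.p * k * M.p⁻¹ * k⁻¹ := by rw [φ.th_cmt (φ.KN ha) (φ.KN hb), ea, eb]
  have cQ : φ.th (a * b * a⁻¹ * b⁻¹) ∈ M.Q := by
    rw [ec]
    rcases hc with e | e <;> rw [← e]
    exacts [hQ, mul_mem hQ M.zQ]
  have c1 : ψ.th (a * b * a⁻¹ * b⁻¹) ∈ M.Q := by
    have := M.cmQ _ aL (cz' h hs' ha aN) (by rw [← ψ.th_pow aN, a3, ψ.th_one]) _ bL (cz' h hs' hb bN)
      (by rw [← ψ.th_cmt aN bN, ← ψ.th_pow cN]; exact (congrArg ψ.th (pow8 M φ cK cQ)).trans ψ.th_one)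
    rwa [ψ.th_cmt aN bN]
  have key : ∀ y ∈ φ.K, φ.th (a * b * a⁻¹ * b⁻¹) = φ.th y → ψ.th y ∈ M.Q := fun y hy e => by
    rcases eqz M φ cK hy e with e | e <;> rw [e]
    · exact c1
    · rw [ψ.mul cN h.symm.sN, hs']; exact mul_mem c1 M.zQ
  rcases hc with e | e
  · exact key x hx (by rw [ec, e])
  · have f2 : ψ.th f * ψ.th f ∈ M.Q := M.sqQ _ fL (cz' h hs' hf fN)
      (by rw [← ψ.th_pow fN]; exact (congrArg ψ.th (pow8 M φ hf (ef ▸ M.fQ))).trans ψ.th_one)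
    have := key (x * (f * f)) (mul_mem hx (mul_mem hf hf))
      (by rw [ec, φ.mul (φ.KN hx) (φ.KN (mul_mem hf hf)), φ.mul (φ.KN hf) (φ.KN hf), ef, M.ff, e])
    rw [ψ.mul xN (mul_mem fN fN), ψ.mul fN fN] at this
    exact (mul_mem_cancel_right f2).1 this

end Me2

open Me2

theorem Dt.Me.sK (M : D.Me) {φ ψ : Fr G D} (h : Pr φ ψ) (hs : φ.th ψ.z0 = D.z) (hs' : ψ.th φ.z0 = D.z) :
    ψ.z0 ∈ φ.K := by
  haveI := D.fin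
  obtain ⟨Y, YK, Y2, -, YQ, -, -, hc⟩ := φ.liftP M.QL (pg_of fun q hq => ⟨2, q4 M hq⟩)
  have YN : Y ≤ ψ.N := fun y hy => (M.innQ h hs (YK hy) (.inl (YQ y hy))).1
  have hle : ψ.img Y ≤ M.Q := fun a ha => by
    obtain ⟨y, hy, rfl⟩ := (ψ.mem_img YN).1 ha
    exact thQ M h hs hs' (YK hy) (YQ y hy)
  obtain ⟨y, hy, y1, y0⟩ : ∃ y ∈ Y, ψ.th y = 1 ∧ y ≠ 1 := by
    by_contra hn
    push Not at hn
    have h1 := ψ.card_img_eq YN hn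
    have h2 := card_le_of_le hle
    have h3 : 0 < Nat.card M.Q := Nat.card_pos
    omega
  obtain ⟨n, hn⟩ := two_elt Y2 hy
  obtain ⟨i, w1, w2⟩ := exists_invol hn y0
  have wY := pow_mem hy i
  have w3 : ψ.th (y ^ i) = 1 := by rw [ψ.th_pow (YN hy), y1, one_pow]
  generalize y ^ i = w at w1 w2 wY w3
  have wK := YK wY
  have w4 : φ.th w ≠ 1 := fun e => (ker1 M φ wK e).elim w1 fun e => D.z1 (by rw [← hs', ← e, w3])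
  have w5 : IsConj D.z (φ.th w) := (D.ty (φ.thK wK) (φ.th_sq (φ.KN wK) w2) w4).resolve_right fun e =>
    φ.z1 (by rw [← φ.lb wK e (i := 1) (by rw [pow_one, pow_two, w2]), w2])
  have w6 := h.gen1 (φ.KN wK) (YN wY) w3 w2 w5
  have w7 : w * ψ.z0 = 1 := h.ti _ (mul_mem (φ.KN wK) h.sN) (mul_mem (YN wY) ψ.z0N)
    (by rw [φ.mul (φ.KN wK) h.sN, ← w6, h.s2]) (by rw [ψ.th_mul_z (YN wY), w3])
    (by rw [mul_assoc, ← mul_assoc ψ.z0, ← ψ.Nz (YN wY), mul_assoc, ψ.z2, mul_one, w2])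
  rw [← inv_eq_of_mul_eq_one_right w7]
  exact inv_mem wK

theorem Dt.Me.QK (M : D.Me) {φ ψ : Fr G D} (h : Pr φ ψ) (hs : φ.th ψ.z0 = D.z) (hs' : ψ.th φ.z0 = D.z) {x : G}
    (hx : x ∈ φ.K) (hQ : φ.th x ∈ M.Q) : x ∈ ψ.K := by
  obtain ⟨a, ha, ea, a3⟩ := lift_p M ψ
  obtain ⟨aN, aL⟩ := M.innQ h.symm hs' ha (.inr (.inr (by rw [ea, mul_inv_cancel]; exact one_mem _)))
  have a1 : φ.th a ≠ 1 := fun e => by
    obtain ⟨g, hg, eg⟩ := φ.onto M.gL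
    have gK := mul_mem hg hg
    have e2 : φ.th (g * g) = M.g * M.g := by rw [φ.mul (φ.KN hg) (φ.KN hg), eg]
    have gN := (M.innQ h hs gK (.inl (e2 ▸ M.gQ))).1
    have c1 := M.cQp _ (thQ M h hs hs' gK (e2 ▸ M.gQ)) (ea ▸ ψ.th_comm gN (ψ.KN ha) (φ.cK aN e gK).symm)
    obtain ⟨w, wK, wN, e3, e4⟩ : ∃ w ∈ φ.K, w ∈ ψ.N ∧ φ.th w = M.g * M.g ∧ ψ.th w = 1 := by
      rcases c1 with c1 | c1
      · exact ⟨_, gK, gN, e2, c1⟩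
      · exact ⟨_, mul_mem gK φ.z0K, mul_mem gN h.symm.sN, by rw [φ.th_mul_z (φ.KN gK), e2],
          by rw [ψ.mul gN h.symm.sN, c1, hs', D.z2]⟩
    have w5 : IsConj D.z (φ.th w) := e3 ▸ M.gc
    have := h.gen1 (φ.KN wK) wN e4 (φ.lz wK w5 (pow8 M φ wK (e3 ▸ M.gQ))) w5
    exact M.gz (by rw [← e3, ← this, hs])
  obtain ⟨k, hk, hc⟩ := M.cov _ aL (cz' h.symm hs ha aN) (by rw [← φ.th_pow aN, a3, φ.th_one]) a1 _ hQ
  obtain ⟨b, hb, eb⟩ := φ.onto (M.QL hk)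
  obtain ⟨bN, -⟩ := M.innQ h hs hb (.inl (eb ▸ hk))
  have cK : a * b * a⁻¹ * b⁻¹ ∈ φ.K := mul_mem (φ.nK aN hb) (inv_mem hb)
  have cK' : a * b * a⁻¹ * b⁻¹ ∈ ψ.K := by
    rw [mul_assoc, mul_assoc, ← mul_assoc b]
    exact mul_mem ha (ψ.nK bN (inv_mem ha))
  have ec : φ.th (a * b * a⁻¹ * b⁻¹) = φ.th a * k * (φ.th a)⁻¹ * k⁻¹ := by rw [φ.th_cmt aN (φ.KN hb), eb]
  have key : ∀ y ∈ φ.K, φ.th (a * b * a⁻¹ * b⁻¹) = φ.th y → y ∈ ψ.K := fun y hy e => by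
    rcases eqz M φ cK hy e with e | e <;> rw [e]
    exacts [cK', mul_mem cK' (M.sK h.symm hs' hs)]
  rcases hc with e | e
  · exact key x hx (by rw [ec, e])
  · exact (mul_mem_cancel_right ψ.z0K).1 (key (x * ψ.z0) (mul_mem hx (M.sK h hs hs'))
      (by rw [ec, φ.mul (φ.KN hx) h.sN, hs, e]))

theorem Dt.Me.sq (M : D.Me) {φ ψ : Fr G D} (h : Pr φ ψ) (hs : φ.th ψ.z0 = D.z) (hs' : ψ.th φ.z0 = D.z) {x : G}
    (hx : x ∈ φ.K) (hz : φ.th (x * x) = D.z) : x * x = ψ.z0 := by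
  refine (eqz M φ (M.sK h hs hs') (mul_mem hx hx) (by rw [hs, hz])).resolve_right fun e => ?_
  obtain ⟨f, hf, ef⟩ := φ.onto (M.QL M.fQ)
  obtain ⟨b, hb, eb⟩ := φ.onto D.βL
  have e1 : x * x = f * f := M.mb φ hx hf (hz ▸ IsConj.refl _) (by rw [hz, φ.mul (φ.KN hf) (φ.KN hf), ef, M.ff])
  have e2 : b * b = φ.z0 := φ.lb hb (eb ▸ IsConj.refl _) (pow8 M φ hb (eb ▸ M.βQ))
  have e3 : ψ.th (f * f) = D.z := by rw [← e1, e, ψ.mul ψ.z0N h.symm.sN, ψ.thz, one_mul, hs']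
  have e4 := M.mb ψ (M.QK h hs hs' hf (ef ▸ M.fQ)) (M.QK h hs hs' hb (eb ▸ M.βQ)) (e3 ▸ IsConj.refl _)
    (by rw [e3, e2, hs'])
  rw [← e1, e, e2] at e4
  exact ψ.z1 (mul_eq_right.1 e4)

end Cfsg.Agent.CvS
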