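import Mathlib
import Cfsg.Agent.CvS.Me2

/-! The `M₁₂` endgame, last part. -/

set_option autoImplicit false

namespace Cfsg.Agent.CvS

open Subgroup

universe u

variable {Γ : Type} [Group Γ] {G : Type u} [Group G] [Finite G] {D : Dt Γ}

namespace Me3

open Me2

theorem outer (M : D.Me) {φ ψ : Fr G D} (h : Pr φ ψ) (hs : φ.th ψ.z0 = D.z) (hs' : ψ.th φ.z0 = D.z) {x : G}
    (hx : x ∈ φ.K) (hz : φ.th x * D.z = D.z * φ.th x) (hD : ¬ InD M.Q M.p (φ.th x)) : ψ.th x ∉ D.L := by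
  obtain ⟨y, hy, ey⟩ := φ.onto M.yL
  have y2 := mul_mem hy hy
  have e2 : φ.th (y * y) = M.y * M.y := by rw [φ.mul (φ.KN hy) (φ.KN hy), ey]
  have yK := M.QK h hs hs' y2 (e2 ▸ M.yQ)
  have y4 : y * y * (y * y) = ψ.z0 := M.sq h hs hs' y2 (by rw [φ.mul (φ.KN y2) (φ.KN y2), e2, M.y4])
  have yN : y ∈ ψ.N := ψ.cenz (cs h hs hy (by rw [ey, ← M.y4]; simp only [mul_assoc]))
  have xN : x ∈ ψ.N := ψ.cenz (cs h hs hx hz)
  have a1 : ψ.th (y * y) ≠ 1 := fun e => ψ.z1 (by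
    rcases ker1 M ψ yK e with e | e <;> rw [← y4, e]
    exacts [one_mul 1, ψ.z2])
  have a2 : IsConj D.β (ψ.th (y * y)) :=
    (D.ty (ψ.thK yK) (by rw [← ψ.mul (ψ.KN yK) (ψ.KN yK), y4, ψ.thz]) a1).resolve_left fun e =>
      ψ.z1 (by rw [← y4, ψ.lz yK e (i := 2) (by
        rw [show 2 ^ 2 = 2 * 2 by norm_num, pow_mul, pow_two (y * y), y4, pow_two, ψ.z2])])
  have a3 : ψ.th y ∉ D.L := fun e => M.nsq _ e (by rwa [← ψ.mul yN yN])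
  have a4 := (M.innQ h hs (mul_mem hx hy)
    (by rw [φ.mul (φ.KN hx) (φ.KN hy), ey]; exact M.yD _ (φ.thK hx) hz hD)).2
  rw [ψ.mul xN yN, D.mul_iff] at a4
  exact fun e => a3 (a4.1 e)

theorem sq1 (M : D.Me) (φ : Fr G D) {x : G} (hx : x ∈ φ.K) (hz : φ.th x * D.z = D.z * φ.th x)
    (hD : ¬ InD M.Q M.p (φ.th x)) (h2 : φ.th x * φ.th x = 1) : x * x = 1 :=
  φ.lz hx (M.invD _ (φ.thK hx) hz hD h2) (i := 2) (pow2 M φ hx (n := 2) (by rw [pow_two, h2]))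

theorem fin (M : D.Me) {φ ψ : Fr G D} (h : Pr φ ψ) (hs : φ.th ψ.z0 = D.z) (hs' : ψ.th φ.z0 = D.z) : False := by
  obtain ⟨j, hj, ej⟩ := ψ.onto M.xL
  have jz : ψ.th j * D.z = D.z * ψ.th j := ej ▸ M.xz
  have j2 : j * j = 1 := sq1 M ψ hj jz (ej ▸ M.xD) (ej ▸ M.x2)
  have jc := cs h.symm hs' hj jz
  have jN : j ∈ φ.N := φ.cenz jc
  obtain ⟨x0, x0L, x0z, x0D, x02, x0j, k0, k0L, k02, xkD, xk2⟩ :=
    M.out _ (outer M h.symm hs' hs hj jz (ej ▸ M.xD)) (cz' h.symm hs hj jN) (φ.th_sq jN j2)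
  obtain ⟨x, hx, rfl⟩ := φ.onto x0L
  obtain ⟨k, hk, rfl⟩ := φ.onto k0L
  have xN := φ.KN hx
  have kN := φ.KN hk
  have x2 : x * x = 1 := sq1 M φ hx x0z x0D x02
  have kz : φ.th k * D.z = D.z * φ.th k := by rw [← k02, mul_assoc]
  have xk : x * k * (x * k) = 1 := sq1 M φ (mul_mem hx hk)
    (by rw [φ.mul xN kN, mul_assoc, kz, ← mul_assoc, x0z, mul_assoc]) (by rwa [φ.mul xN kN]) (by rwa [φ.mul xN kN])
  have k2 : k * k = ψ.z0 := M.sq h hs hs' hk (by rw [φ.mul kN kN, k02])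
  have xs := cs h hs hx x0z
  have xN' : x ∈ ψ.N := ψ.cenz xs
  have kx : k * x * k⁻¹ = x * ψ.z0 := by
    rw [← inv_of_sq ψ.z2, ← k2]
    calc k * x * k⁻¹ = x⁻¹ * (x * k * (x * k)) * (k * k)⁻¹ := by group
      _ = _ := by rw [xk, inv_of_sq x2, mul_one]
  have uK : j * x * j⁻¹ ∈ φ.K := φ.nK jN hx
  have n2 : j * x * (j * x) = j * x * j⁻¹ * x := by rw [inv_of_sq j2, ← mul_assoc]
  have nN := mul_mem jN xN
  have n3 : j * x * (j * x) = ψ.z0 := by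
    refine (eqz M φ (M.sK h hs hs') (n2 ▸ mul_mem uK hx) (by rw [hs, φ.mul nN nN, φ.mul jN xN, x0j])).resolve_right
      fun e => ?_
    have eu : j * x * j⁻¹ = x * ψ.z0 * φ.z0 := by
      rw [n2] at e
      rw [eq_mul_inv_of_mul_eq e, inv_of_sq x2, mul_assoc, ← φ.zK hx, ← mul_assoc, ← xs]
    have xc := M.invD _ x0L x0z x0D x02
    obtain ⟨l, hl, el⟩ := D.of_z xc
    obtain ⟨a, ha, ea⟩ := φ.onto (D.cjL l⁻¹ (M.QL M.fQ))
    have aN := φ.KN ha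
    have e1 : φ.th (a * a) = φ.th x := by
      rw [φ.mul aN aN, ea, show l⁻¹ * M.f * l⁻¹⁻¹ * (l⁻¹ * M.f * l⁻¹⁻¹) = l⁻¹ * (M.f * M.f) * l by group, M.ff, ← el]
      group
    have c1 : ∀ g, g * a * g⁻¹ * (g * a * g⁻¹) = g * (a * a) * g⁻¹ := fun g => by group
    have c2 : ∀ g ∈ φ.N, φ.th (g * a * g⁻¹ * (g * a * g⁻¹)) = φ.th (g * x * g⁻¹) := fun g hg => by
      rw [c1, φ.th_conj hg (mul_mem aN aN), e1, φ.th_conj hg xN]
    have e2 := M.mb φ (φ.nK kN ha) (φ.nK jN ha)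
      (by rw [c2 k kN, φ.th_conj kN xN]; exact xc.trans (isConj_cj _ _))
      (by rw [c2 k kN, c2 j jN, kx, eu, φ.th_mul_z (mul_mem xN h.sN)])
    rw [c1, c1] at e2
    have e3 : k * x * k⁻¹ = j * x * j⁻¹ := by
      rcases eqz M φ hx (mul_mem ha ha) e1.symm with e3 | e3 <;> rw [e3] at e2
      · exact e2
      · have c3 : ∀ g ∈ φ.N, g * (x * φ.z0) * g⁻¹ = g * x * g⁻¹ * φ.z0 := fun g hg => by
          rw [mul_assoc (g * x), φ.Nz (inv_mem hg)]; group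
        rw [c3 k kN, c3 j jN] at e2
        exact mul_right_cancel e2
    rw [kx, eu] at e3
    exact φ.z1 (left_eq_mul.1 e3)
  have jN' := ψ.KN hj
  have nN' := mul_mem jN' xN'
  have xo := outer M h hs hs' hx x0z x0D
  obtain ⟨l, hl, el⟩ := M.ocl (ψ.th (j * x)) (by rw [ψ.mul jN' xN', mul_mem_cancel_left (ψ.thK hj)]; exact xo) _ xo
    (by rw [← ψ.mul nN' nN', n3, ψ.thz]) (ψ.th_sq xN' x2)
  obtain ⟨b, hb, rfl⟩ := ψ.onto hl
  have bN := ψ.KN hb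
  have cK : x⁻¹ * (b * (j * x) * b⁻¹) ∈ ψ.K := by
    have := ψ.nK' xN' (mul_mem (mul_mem hb hj) (ψ.nK xN' (inv_mem hb)))
    convert this using 1; group
  have c1 := ker1 M ψ cK (ψ.th_div xN' (mul_mem (mul_mem bN nN') (inv_mem bN)) (by rw [ψ.th_conj bN nN', el]))
  have c2 : b * (j * x) * b⁻¹ * (b * (j * x) * b⁻¹) = ψ.z0 := by
    rw [show b * (j * x) * b⁻¹ * (b * (j * x) * b⁻¹) = b * (j * x * (j * x)) * b⁻¹ by group, n3, ψ.zK hb,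
      mul_inv_cancel_right]
  refine ψ.z1 ?_
  rw [← c2]
  rcases c1 with e | e
  · rw [← inv_mul_eq_one.1 e, x2]
  · rw [eq_mul_of_inv_mul_eq e, mul_assoc, ← mul_assoc ψ.z0, ← xs, mul_assoc, ψ.z2, mul_one, x2]

end Me3

theorem Dt.Me.one (M : D.Me) : One G D := fun φ ψ h hz => by
  obtain ⟨l, -, el⟩ := D.of_z hz
  obtain ⟨l', -, el'⟩ := D.of_z (M.mc (h.tw l) el)
  exact Me3.fin M ((h.tw l).tw' l') el el'

end Cfsg.Agent.CvS
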